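import Mathlib
import Cfsg.Agent.H802.FusEss
import Cfsg.Agent.H617.FusFour

/-!
# Odd automorphisms in a fusion system on a `2`-group: definitions

`NilAt F u`: no automorphism of odd order in the system fixes a conjugate of `u`;
`Odd2 F E`: `E` is fully normalized and centric and has a nontrivial automorphism of odd order.
-/

set_option autoImplicit false

namespace Cfsg.Agent.H645.FT

open Cfsg Cfsg.FusionSystem

variable {Ω : Type*} [Group Ω] {S : Subgroup Ω}

/-- No automorphism of odd order in the system fixes a conjugate of `u`. -/
def NilAt (F : FusionSystem S) (u : Ω) : Prop :=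
  ∀ E : Subgroup Ω, E ≤ S → ∀ t : E, F.IsConjElt u t → ∀ α ∈ F.autGroup E,
    ¬ 2 ∣ orderOf α → α t = t → α = 1

end Cfsg.Agent.H645.FT
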