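import Mathlib
import Cfsg.Agent.H794.SmallFix
import Cfsg.Agent.H745.MetaTwo

/-!
# Automorphisms of odd order of small abelian `2`-groups

`H = ⟨a⟩ × ⟨e⟩` (or a quotient of it), `e² = 1`, invariant under the odd order automorphism `α` of
the `2`-group `Q`.

* `fix_of_gen`: if `a² ≠ 1` then `α` fixes `H`;
* `fix_of_gen'`: `α` fixes `H` if it fixes an involution of `H`.
-/

set_option autoImplicit false

namespace Cfsg.Agent.H645.FT

open Cfsg.Agent.H745.MetaTwo (fix_of_cyclic sq_of_cyclic)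

variable {Q : Type*} [Group Q]

theorem coprime_of_odd {Q : Type*} [Group Q] {α : MulAut Q} (h : ¬ 2 ∣ orderOf α) :
    (orderOf α).Coprime 2 :=
  ((Nat.Prime.coprime_iff_not_dvd Nat.prime_two).2 h).symm

/-- If `α` fixes `v⁻¹ α v` then it fixes `v`. -/
theorem fix_of_div (h2 : IsPGroup 2 Q) {α : MulAut Q} (hα : ¬ 2 ∣ orderOf α) {v : Q}
    (h : α (v⁻¹ * α v) = v⁻¹ * α v) : α v = v :=
  Cfsg.Agent.H794.fix_of_fix_div h2 α (coprime_of_odd hα) v h

/-- If `α v = v * t` and `α t = t` then `α v = v`. -/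
theorem fix_of_mul (h2 : IsPGroup 2 Q) {α : MulAut Q} (hα : ¬ 2 ∣ orderOf α) {v t : Q}
    (h : α v = v * t) (ht : α t = t) : α v = v :=
  fix_of_div h2 hα (by rw [h, inv_mul_cancel_left, ht])

/-- The elements of square one of `⟨a, e⟩`. -/
theorem sq_one_cases {a e w v : Q} (hae : a * e = e * a) (hee : e * e = 1)
    (hw : w ∈ Subgroup.zpowers a) (hw1 : w ≠ 1) (hww : w * w = 1) (hfin : Finite Q)
    {i : ℕ} (hv : v = a ^ i ∨ v = a ^ i * e) (hvv : v * v = 1) :
    v = 1 ∨ v = w ∨ v = e ∨ v = w * e := by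
  have hai : a ^ i ∈ Subgroup.zpowers a := Subgroup.npow_mem_zpowers a i
  have key : a ^ i * a ^ i = 1 → a ^ i = 1 ∨ a ^ i = w := fun h =>
    sq_of_cyclic (Subgroup.zpowers a) hai hw h hww hw1
  rcases hv with rfl | rfl
  · rcases key hvv with h | h
    · exact Or.inl h
    · exact Or.inr (Or.inl h)
  · have hc : e * a ^ i = a ^ i * e := ((Commute.pow_left (show Commute a e from hae) i).eq).symm
    have h1 : a ^ i * a ^ i = 1 := by
      calc a ^ i * a ^ i = a ^ i * a ^ i * (e * e) := by rw [hee, mul_one]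
        _ = a ^ i * (a ^ i * e) * e := by group
        _ = a ^ i * (e * a ^ i) * e := by rw [hc]
        _ = a ^ i * e * (a ^ i * e) := by group
        _ = 1 := hvv
    rcases key h1 with h | h
    · exact Or.inr (Or.inr (Or.inl (by rw [h, one_mul])))
    · exact Or.inr (Or.inr (Or.inr (by rw [h])))

/-- An odd order automorphism of `⟨a⟩ × ⟨e⟩`, `a² ≠ 1`. -/
theorem fix_of_gen [Finite Q] (h2 : IsPGroup 2 Q) {α : MulAut Q} (hα : ¬ 2 ∣ orderOf α)
    (H : Subgroup Q) (hH : ∀ v ∈ H, α v ∈ H) {a e : Q} (ha : a ∈ H) (he : e ∈ H)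
    (hae : a * e = e * a) (hee : e * e = 1) (hgen : ∀ v ∈ H, ∃ i : ℕ, v = a ^ i ∨ v = a ^ i * e)
    (h4 : a * a ≠ 1) : ∀ v ∈ H, α v = v := by
  have hpow : ∀ i : ℕ, (a * a) ^ i = a ^ i * a ^ i := fun i => (Commute.refl a).mul_pow i
  -- `α` fixes `a * a`
  have haa : α (a * a) = a * a := by
    refine fix_of_cyclic h2 (Subgroup.zpowers (a * a)) α ?_ hα (pow_orderOf_eq_one α) _
      (Subgroup.mem_zpowers _)
    have h1 : α (a * a) ∈ Subgroup.zpowers (a * a) := by
      obtain ⟨i, hi | hi⟩ := hgen _ (hH a ha)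
      · rw [map_mul, hi, ← hpow]
        exact Subgroup.npow_mem_zpowers _ _
      · have hc : e * a ^ i = a ^ i * e :=
          ((Commute.pow_left (show Commute a e from hae) i).eq).symm
        have h3 : a ^ i * e * (a ^ i * e) = (a * a) ^ i := by
          rw [hpow]
          calc a ^ i * e * (a ^ i * e) = a ^ i * (e * a ^ i) * e := by group
            _ = a ^ i * (a ^ i * e) * e := by rw [hc]
            _ = a ^ i * a ^ i * (e * e) := by group
            _ = _ := by rw [hee, mul_one]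
        rw [map_mul, hi, h3]
        exact Subgroup.npow_mem_zpowers _ _
    intro x hx
    obtain ⟨k, rfl⟩ := Subgroup.mem_zpowers_iff.1 hx
    rw [map_zpow]
    exact Subgroup.zpow_mem _ h1 k
  -- the involution
  obtain ⟨w, hw, hw1, hww⟩ : ∃ w ∈ Subgroup.zpowers (a * a), w ≠ 1 ∧ w * w = 1 := by
    obtain ⟨k, hk⟩ := IsPGroup.iff_orderOf.1 h2 (a * a)
    have hk0 : k ≠ 0 := by
      rintro rfl
      rw [pow_zero, orderOf_eq_one_iff] at hk
      exact h4 hk
    refine ⟨(a * a) ^ 2 ^ (k - 1), Subgroup.npow_mem_zpowers _ _, ?_, ?_⟩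
    · intro h
      have h5 := orderOf_dvd_of_pow_eq_one h
      rw [hk] at h5
      have h6 := (Nat.pow_dvd_pow_iff_le_right (by norm_num : 1 < 2)).1 h5
      omega
    · rw [← pow_add, ← two_mul, ← pow_succ', Nat.sub_add_cancel (Nat.one_le_iff_ne_zero.2 hk0),
        ← hk, pow_orderOf_eq_one]
  have hwa : w ∈ Subgroup.zpowers a :=
    (Subgroup.zpowers_le.2 (Subgroup.mul_mem _ (Subgroup.mem_zpowers a) (Subgroup.mem_zpowers a))) hw
  have hwfix : α w = w := by
    obtain ⟨k, rfl⟩ := Subgroup.mem_zpowers_iff.1 hw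
    rw [map_zpow, haa]
  have cases' : ∀ v ∈ H, v * v = 1 → v = 1 ∨ v = w ∨ v = e ∨ v = w * e := by
    intro v hv hvv
    obtain ⟨i, hi⟩ := hgen v hv
    exact sq_one_cases hae hee hwa hw1 hww inferInstance hi hvv
  have hwe : w * e = e * w := by
    obtain ⟨k, rfl⟩ := Subgroup.mem_zpowers_iff.1 hwa
    exact (Commute.zpow_left (show Commute a e from hae) k).eq
  -- `α` fixes `e`
  have hefix : α e = e := by
    have h1 : α e * α e = 1 := by rw [← map_mul, hee, map_one]
    rcases cases' _ (hH e he) h1 with h | h | h | h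
    · have : e = 1 := by
        apply α.injective
        rw [h, map_one]
      rw [this, map_one]
    · have : e = w := by
        apply α.injective
        rw [h, hwfix]
      rw [h, this]
    · exact h
    · exact fix_of_mul h2 hα (h.trans hwe) hwfix
  have hfix4 : ∀ v, (v = 1 ∨ v = w ∨ v = e ∨ v = w * e) → α v = v := by
    rintro v (rfl | rfl | rfl | rfl)
    · exact map_one _
    · exact hwfix
    · exact hefix
    · rw [map_mul, hwfix, hefix]
  -- `α` fixes `a`
  have hafix : α a = a := by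
    refine fix_of_div h2 hα (hfix4 _ (cases' _ (H.mul_mem (H.inv_mem ha) (hH a ha)) ?_))
    have hcomm : a * α a = α a * a := by
      obtain ⟨i, hi | hi⟩ := hgen _ (hH a ha)
      · rw [hi, ← pow_succ, ← pow_succ']
      · rw [hi, ← mul_assoc, ← pow_succ', mul_assoc, ← hae, ← mul_assoc, ← pow_succ]
    have h3 : α a * α a = a * a := by rw [← map_mul, haa]
    calc a⁻¹ * α a * (a⁻¹ * α a) = a⁻¹ * (α a * a⁻¹) * α a := by group
      _ = a⁻¹ * (a⁻¹ * α a) * α a := by
          congr 2
          calc α a * a⁻¹ = a⁻¹ * (a * α a) * a⁻¹ := by group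
            _ = a⁻¹ * (α a * a) * a⁻¹ := by rw [hcomm]
            _ = a⁻¹ * α a := by group
      _ = a⁻¹ * a⁻¹ * (α a * α a) := by group
      _ = 1 := by rw [h3]; group
  intro v hv
  obtain ⟨i, hi | hi⟩ := hgen v hv
  · rw [hi, map_pow, hafix]
  · rw [hi, map_mul, map_pow, hafix, hefix]

/-- The elements of a group `{1, a, e, a e}`. -/
theorem klein_cases {a e : Q} (haa : a * a = 1) (hee : e * e = 1) (hae : a * e = e * a)
    {d v w : Q} (hd : d = 1 ∨ d = a ∨ d = e ∨ d = a * e) (hv : v = 1 ∨ v = a ∨ v = e ∨ v = a * e)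
    (hw : w = 1 ∨ w = a ∨ w = e ∨ w = a * e) (hd1 : d ≠ 1) (hv1 : v ≠ 1) (hvd : v ≠ d)
    (hw1 : w ≠ 1) (hwd : w ≠ d) : w = v ∨ w = v * d := by
  have e1 : a * (a * e) = e := by rw [← mul_assoc, haa, one_mul]
  have e2 : e * (a * e) = a := by rw [hae, ← mul_assoc, hee, one_mul]
  have e3 : a * e * a = e := by rw [mul_assoc, ← hae, e1]
  have e4 : a * e * e = a := by rw [mul_assoc, hee, mul_one]
  have e5 : e * a = a * e := hae.symm
  rcases hd with rfl | rfl | rfl | rfl <;> rcases hv with rfl | rfl | rfl | rfl <;>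
    rcases hw with rfl | rfl | rfl | rfl <;>
    first
      | exact absurd rfl hd1
      | exact absurd rfl hv1
      | exact absurd rfl hw1
      | exact absurd rfl hvd
      | exact absurd rfl hwd
      | exact Or.inl rfl
      | exact Or.inr e1.symm
      | exact Or.inr e2.symm
      | exact Or.inr e3.symm
      | exact Or.inr e4.symm
      | exact Or.inr e5.symm
      | exact Or.inr rfl

/-- An odd order automorphism of `⟨a⟩ × ⟨e⟩` fixing an involution. -/
theorem fix_of_gen' [Finite Q] (h2 : IsPGroup 2 Q) {α : MulAut Q} (hα : ¬ 2 ∣ orderOf α)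
    (H : Subgroup Q) (hH : ∀ v ∈ H, α v ∈ H) {a e : Q} (ha : a ∈ H) (he : e ∈ H)
    (hae : a * e = e * a) (hee : e * e = 1) (hgen : ∀ v ∈ H, ∃ i : ℕ, v = a ^ i ∨ v = a ^ i * e)
    {d : Q} (hd : d ∈ H) (hd1 : d ≠ 1) (hfix : α d = d) : ∀ v ∈ H, α v = v := by
  by_cases h4 : a * a = 1
  · have key : ∀ v ∈ H, v = 1 ∨ v = a ∨ v = e ∨ v = a * e := by
      intro v hv
      obtain ⟨i, hi⟩ := hgen v hv
      have hai : a ^ i = 1 ∨ a ^ i = a := by
        rcases Nat.even_or_odd' i with ⟨k, rfl | rfl⟩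
        · left; rw [pow_mul, pow_two, h4, one_pow]
        · right; rw [pow_add, pow_mul, pow_two, h4, one_pow, one_mul, pow_one]
      rcases hi with rfl | rfl
      · rcases hai with h | h
        · exact Or.inl h
        · exact Or.inr (Or.inl h)
      · rcases hai with h | h
        · exact Or.inr (Or.inr (Or.inl (by rw [h, one_mul])))
        · exact Or.inr (Or.inr (Or.inr (by rw [h])))
    intro v hv
    by_cases hv1 : v = 1
    · rw [hv1, map_one]
    by_cases hvd : v = d
    · rw [hvd, hfix]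
    have h1 : α v ≠ 1 := fun h => hv1 (α.injective (h.trans (map_one α).symm))
    have h3 : α v ≠ d := fun h => hvd (α.injective (h.trans hfix.symm))
    rcases klein_cases h4 hee hae (key d hd) (key v hv) (key _ (hH v hv)) hd1 hv1 hvd h1 h3 with
      h | h
    · exact h
    · exact fix_of_mul h2 hα h hfix
  · exact fix_of_gen h2 hα H hH ha he hae hee hgen h4

end Cfsg.Agent.H645.FT
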