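import Mathlib
import Cfsg.Agent.H645.FT.Defs
import Cfsg.Agent.H645.FT.Odd
import Cfsg.Agent.H617.FusMain

/-!
# Nonabelian `2`-groups with an abelian subgroup `A = ⟨x⟩ × ⟨e⟩` of index two, `e` central

`Grp S A x e y`: the configuration (`y` an element outside `A`, `x² ≠ 1`);
`cm y a = y a y⁻¹ a⁻¹`.
-/

set_option autoImplicit false

namespace Cfsg.Agent.H645.FT

open Cfsg Cfsg.FusionSystem Cfsg.Agent.H802 Cfsg.Agent.H617.FusInv Cfsg.Agent.H617.FusTwo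
open Cfsg.Agent.H617.FusFour Cfsg.Agent.H617.FusMain
open Cfsg.Agent.H745.MetaTwo (sq_of_cyclic)

variable {Ω : Type*} [Group Ω]

/-- The configuration. -/
structure Grp (S A : Subgroup Ω) (x e y : Ω) : Prop where
  pgrp : IsPGroup 2 S
  le : A ≤ S
  idx : A.relIndex S = 2
  comm : ∀ a ∈ A, ∀ b ∈ A, a * b = b * a
  xA : x ∈ A
  eZ : e ∈ Z S
  ee : e * e = 1
  gen : ∀ a ∈ A, ∃ i : ℕ, a = x ^ i ∨ a = x ^ i * e
  x4 : x * x ≠ 1
  yS : y ∈ S
  yA : y ∉ A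
  nc : y * x ≠ x * y

variable {S A : Subgroup Ω} {x e y : Ω}

namespace Grp

theorem ne (h : Grp S A x e y) : Z S ≠ S := by
  intro h1
  have h2 : x ∈ Z S := by rw [h1]; exact h.le h.xA
  exact h.nc ((mem_Z.1 h2).2 y h.yS)

theorem Z_le_A (h : Grp S A x e y) : Z S ≤ A := Cfsg.Agent.H617.FusFour.Z_le_A h.le h.idx h.comm h.ne

theorem mem_Z_of_comm (h : Grp S A x e y) {a u : Ω} (ha : a ∈ A) (hu : u ∈ S) (huA : u ∉ A)
    (hc : u * a = a * u) : a ∈ Z S := mem_Z_of_comm_out h.le h.idx h.comm ha hu huA hc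

theorem conj_mem (h : Grp S A x e y) {t a : Ω} (ht : t ∈ S) (ha : a ∈ A) : t * a * t⁻¹ ∈ A :=
  (Subgroup.mem_normalizer_iff.1 (le_normalizer_of_relIndex_two h.le h.idx ht) a).1 ha

theorem mul_mem_iff (h : Grp S A x e y) {a b : Ω} (ha : a ∈ S) (hb : b ∈ S) :
    a * b ∈ A ↔ (a ∈ A ↔ b ∈ A) := mul_mem_iff_of_relIndex_two h.idx ha hb

/-- All elements outside `A` act on `A` in the same way. -/
theorem conj_eq (h : Grp S A x e y) {u a : Ω} (hu : u ∈ S) (huA : u ∉ A) (ha : a ∈ A) :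
    u * a * u⁻¹ = y * a * y⁻¹ := by
  have h1 : y⁻¹ * u ∈ A := inv_mul_mem_of_relIndex_two h.idx h.yS hu h.yA huA
  have h2 := h.comm _ h1 a ha
  calc u * a * u⁻¹ = y * ((y⁻¹ * u) * a) * u⁻¹ := by group
    _ = y * (a * (y⁻¹ * u)) * u⁻¹ := by rw [h2]
    _ = y * a * y⁻¹ := by group

theorem mul_conj_mem_Z (h : Grp S A x e y) {a : Ω} (ha : a ∈ A) : y * a * y⁻¹ * a ∈ Z S := by
  have h1 := h.conj_mem h.yS ha
  refine h.mem_Z_of_comm (A.mul_mem h1 ha) h.yS h.yA ?_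
  have h3 : y * y ∈ A := by rw [h.mul_mem_iff h.yS h.yS]
  have h4 := h.comm _ h3 a ha
  calc y * (y * a * y⁻¹ * a) = (y * y * a) * (y⁻¹ * a * y⁻¹) * y := by group
    _ = (a * (y * y)) * (y⁻¹ * a * y⁻¹) * y := by rw [h4]
    _ = a * (y * a * y⁻¹) * y := by group
    _ = (y * a * y⁻¹) * a * y := by rw [h.comm a ha _ h1]

end Grp

/-- The commutator with `y`. -/
def cm (y a : Ω) : Ω := y * a * y⁻¹ * a⁻¹

namespace Grp

theorem cm_mem (h : Grp S A x e y) {a : Ω} (ha : a ∈ A) : cm y a ∈ E S :=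
  comm_mem h.yS (h.le ha)

theorem cm_mem_A (h : Grp S A x e y) {a : Ω} (ha : a ∈ A) : cm y a ∈ A :=
  A.mul_mem (h.conj_mem h.yS ha) (A.inv_mem ha)

theorem cm_mul (h : Grp S A x e y) {a b : Ω} (ha : a ∈ A) (hb : b ∈ A) :
    cm y (a * b) = cm y a * cm y b := by
  have h3 := h.comm _ (A.inv_mem ha) _ (h.conj_mem h.yS hb)
  have h4 := h.comm _ (A.inv_mem ha) _ (A.inv_mem hb)
  unfold cm
  calc y * (a * b) * y⁻¹ * (a * b)⁻¹ = y * a * y⁻¹ * (y * b * y⁻¹) * (b⁻¹ * a⁻¹) := by group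
    _ = y * a * y⁻¹ * (y * b * y⁻¹) * (a⁻¹ * b⁻¹) := by rw [h4]
    _ = y * a * y⁻¹ * ((y * b * y⁻¹) * a⁻¹) * b⁻¹ := by group
    _ = y * a * y⁻¹ * (a⁻¹ * (y * b * y⁻¹)) * b⁻¹ := by rw [h3]
    _ = _ := by group

theorem cm_eq_one_iff (h : Grp S A x e y) {a : Ω} (ha : a ∈ A) : cm y a = 1 ↔ a ∈ Z S := by
  constructor
  · intro h1
    refine h.mem_Z_of_comm ha h.yS h.yA ?_
    unfold cm at h1
    rw [mul_inv_eq_one] at h1
    calc y * a = y * a * y⁻¹ * y := by group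
      _ = a * y := by rw [h1]
  · intro h1
    unfold cm
    rw [(mem_Z.1 h1).2 y h.yS]
    group

theorem cm_pow (h : Grp S A x e y) {a : Ω} (ha : a ∈ A) (i : ℕ) : cm y (a ^ i) = cm y a ^ i := by
  induction i with
  | zero => simp [cm]
  | succ n ih => rw [pow_succ, h.cm_mul (A.pow_mem ha n) ha, ih, pow_succ]

/-- The commutators are the powers of `cm y x`. -/
theorem exists_cm_pow (h : Grp S A x e y) {a : Ω} (ha : a ∈ A) : ∃ i : ℕ, cm y a = cm y x ^ i := by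
  obtain ⟨i, rfl | rfl⟩ := h.gen a ha
  · exact ⟨i, h.cm_pow h.xA i⟩
  · refine ⟨i, ?_⟩
    rw [h.cm_mul (A.pow_mem h.xA i) (h.Z_le_A h.eZ), h.cm_pow h.xA i,
      (h.cm_eq_one_iff (h.Z_le_A h.eZ)).2 h.eZ, mul_one]

/-- `[S, S]` consists of the commutators with `y`. -/
theorem exists_cm (h : Grp S A x e y) {s : Ω} (hs : s ∈ E S) : ∃ a ∈ A, s = cm y a :=
  exists_comm_out h.le h.idx h.comm h.yS h.yA hs

theorem E_eq (h : Grp S A x e y) : E S = Subgroup.zpowers (cm y x) := by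
  apply le_antisymm
  · intro s hs
    obtain ⟨a, ha, rfl⟩ := h.exists_cm hs
    obtain ⟨i, hi⟩ := h.exists_cm_pow ha
    rw [hi]
    exact Subgroup.npow_mem_zpowers _ _
  · rw [Subgroup.zpowers_le]
    exact h.cm_mem h.xA

theorem E_le_A (h : Grp S A x e y) : E S ≤ A := E_le_of_relIndex_two h.idx

theorem conj_E (h : Grp S A x e y) {u s : Ω} (hu : u ∈ S) (huA : u ∉ A) (hs : s ∈ E S) :
    u * s * u⁻¹ = s⁻¹ := conj_E_out h.le h.idx h.comm hu huA hs

theorem cm_ne (h : Grp S A x e y) : cm y x ≠ 1 := by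
  intro h1
  exact h.nc ((mem_Z.1 ((h.cm_eq_one_iff h.xA).1 h1)).2 y h.yS)

/-- `[S, S]` meets `Z(S)` in the elements of square one. -/
theorem mem_Z_iff_sq (h : Grp S A x e y) {s : Ω} (hs : s ∈ E S) : s ∈ Z S ↔ s * s = 1 := by
  have h1 := h.conj_E h.yS h.yA hs
  constructor
  · intro h2
    have h3 := (mem_Z.1 h2).2 y h.yS
    rw [h3, mul_inv_cancel_right] at h1
    rw [mul_eq_one_iff_eq_inv]
    exact h1
  · intro h2
    have h3 : s⁻¹ = s := inv_eq_of_mul_eq_one_left h2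
    rw [h3] at h1
    refine h.mem_Z_of_comm (h.E_le_A hs) h.yS h.yA ?_
    calc y * s = y * s * y⁻¹ * y := by group
      _ = s * y := by rw [h1]

/-- The involution of `[S, S]`. -/
theorem exists_d (h : Grp S A x e y) [Finite S] : ∃ d ∈ E S, d ≠ 1 ∧ d * d = 1 ∧ d ∈ Z S ∧
    ∀ s ∈ E S, s ∈ Z S → s = 1 ∨ s = d := by
  have hfin : Finite A := Finite.of_injective _ (Subgroup.inclusion_injective h.le)
  have hA : IsPGroup 2 A := h.pgrp.to_le h.le
  obtain ⟨k, hk⟩ := IsPGroup.iff_orderOf.1 hA ⟨cm y x, h.cm_mem_A h.xA⟩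
  rw [Subgroup.orderOf_mk] at hk
  have hk0 : k ≠ 0 := by
    rintro rfl
    rw [pow_zero, orderOf_eq_one_iff] at hk
    exact h.cm_ne hk
  have hd1 : cm y x ^ 2 ^ (k - 1) ≠ 1 := by
    intro h1
    have h5 := orderOf_dvd_of_pow_eq_one h1
    rw [hk] at h5
    have h6 := (Nat.pow_dvd_pow_iff_le_right (by norm_num : 1 < 2)).1 h5
    omega
  have hdd : cm y x ^ 2 ^ (k - 1) * cm y x ^ 2 ^ (k - 1) = 1 := by
    rw [← pow_add, ← two_mul, ← pow_succ', Nat.sub_add_cancel (Nat.one_le_iff_ne_zero.2 hk0),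
      ← hk, pow_orderOf_eq_one]
  have hdE : cm y x ^ 2 ^ (k - 1) ∈ E S := by
    rw [h.E_eq]
    exact Subgroup.npow_mem_zpowers _ _
  refine ⟨_, hdE, hd1, hdd, (h.mem_Z_iff_sq hdE).2 hdd, fun s hs hsZ => ?_⟩
  have hss := (h.mem_Z_iff_sq hs).1 hsZ
  rw [h.E_eq] at hs hdE
  have hfin2 : Finite (Subgroup.zpowers (cm y x)) := by
    rw [← h.E_eq]
    exact finite_of_le E_le
  exact sq_of_cyclic (Subgroup.zpowers (cm y x)) hs hdE hss hdd hd1

theorem card_A (h : Grp S A x e y) [Finite S] :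
    Nat.card A = Nat.card (Z S) * Nat.card (E S) := by
  rw [card_eq_mul_relIndex h.Z_le_A, relIndex_Z_A_le h.le h.idx h.comm h.yS h.yA h.ne]

theorem card_S (h : Grp S A x e y) [Finite S] : Nat.card S = 2 * Nat.card A := by
  rw [card_eq_mul_relIndex h.le, h.idx, mul_comm]

/-- A square root of `1` in `⟨x⟩` is central. -/
theorem sq_one_mem_Z (h : Grp S A x e y) [Finite S] {w : Ω} (hw : w ∈ Subgroup.zpowers x)
    (hww : w * w = 1) : w ∈ Z S := by
  have hfinA : Finite A := Finite.of_injective _ (Subgroup.inclusion_injective h.le)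
  have hA : IsPGroup 2 A := h.pgrp.to_le h.le
  have hxx : x * x ∈ A := A.mul_mem h.xA h.xA
  have hfin : Finite (Subgroup.zpowers x) := Finite.of_injective _
    (Subgroup.inclusion_injective (Subgroup.zpowers_le.2 h.xA))
  by_cases hw1 : w = 1
  · rw [hw1]; exact (Z S).one_mem
  -- `w ∈ ⟨x x⟩`
  have hw2 : w ∈ Subgroup.zpowers (x * x) := by
    obtain ⟨k, hk⟩ := IsPGroup.iff_orderOf.1 hA ⟨x * x, hxx⟩
    rw [Subgroup.orderOf_mk] at hk
    have hk0 : k ≠ 0 := by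
      rintro rfl
      rw [pow_zero, orderOf_eq_one_iff] at hk
      exact h.x4 hk
    have hd1 : (x * x) ^ 2 ^ (k - 1) ≠ 1 := by
      intro h1
      have h5 := orderOf_dvd_of_pow_eq_one h1
      rw [hk] at h5
      have h6 := (Nat.pow_dvd_pow_iff_le_right (by norm_num : 1 < 2)).1 h5
      omega
    have hdd : (x * x) ^ 2 ^ (k - 1) * (x * x) ^ 2 ^ (k - 1) = 1 := by
      rw [← pow_add, ← two_mul, ← pow_succ', Nat.sub_add_cancel (Nat.one_le_iff_ne_zero.2 hk0),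
        ← hk, pow_orderOf_eq_one]
    have hmem : (x * x) ^ 2 ^ (k - 1) ∈ Subgroup.zpowers x :=
      Subgroup.pow_mem _ (Subgroup.mul_mem _ (Subgroup.mem_zpowers x) (Subgroup.mem_zpowers x)) _
    rcases sq_of_cyclic (Subgroup.zpowers x) hw hmem hww hdd hd1 with h1 | h1
    · exact absurd h1 hw1
    · rw [h1]
      exact Subgroup.npow_mem_zpowers _ _
  -- conjugation by `y` preserves `⟨x x⟩`
  have h3 : y * w * y⁻¹ ∈ Subgroup.zpowers (x * x) := by
    have h4 : y * (x * x) * y⁻¹ ∈ Subgroup.zpowers (x * x) := by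
      have h5 : y * (x * x) * y⁻¹ = (y * x * y⁻¹) * (y * x * y⁻¹) := by group
      have hpow : ∀ i : ℕ, (x * x) ^ i = x ^ i * x ^ i := fun i => (Commute.refl x).mul_pow i
      obtain ⟨i, hi | hi⟩ := h.gen _ (h.conj_mem h.yS h.xA)
      · rw [h5, hi, ← hpow]
        exact Subgroup.npow_mem_zpowers _ _
      · have h6 : e * x ^ i = x ^ i * e :=
          ((mem_Z.1 h.eZ).2 _ (S.pow_mem (h.le h.xA) i)).symm
        rw [h5, hi, show x ^ i * e * (x ^ i * e) = x ^ i * (e * x ^ i) * e by group, h6,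
          show x ^ i * (x ^ i * e) * e = x ^ i * x ^ i * (e * e) by group, h.ee, mul_one, ← hpow]
        exact Subgroup.npow_mem_zpowers _ _
    obtain ⟨k, rfl⟩ := Subgroup.mem_zpowers_iff.1 hw2
    rw [show y * (x * x) ^ k * y⁻¹ = (y * (x * x) * y⁻¹) ^ k by rw [conj_zpow]]
    exact Subgroup.zpow_mem _ h4 k
  have h4 : y * w * y⁻¹ * (y * w * y⁻¹) = 1 := by
    calc y * w * y⁻¹ * (y * w * y⁻¹) = y * (w * w) * y⁻¹ := by group
      _ = 1 := by rw [hww]; group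
  have h5 : y * w * y⁻¹ = 1 ∨ y * w * y⁻¹ = w :=
    sq_of_cyclic (Subgroup.zpowers x)
      (Subgroup.zpowers_le.2 (Subgroup.mul_mem _ (Subgroup.mem_zpowers x)
        (Subgroup.mem_zpowers x)) h3) hw h4 hww hw1
  rcases h5 with h6 | h6
  · exact absurd (conj_eq_one_iff.1 h6) hw1
  · have hwA : w ∈ A := (Subgroup.zpowers_le.2 h.xA) hw
    refine h.mem_Z_of_comm hwA h.yS h.yA ?_
    calc y * w = y * w * y⁻¹ * y := by group
      _ = w * y := by rw [h6]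

end Grp

end Cfsg.Agent.H645.FT
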