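import Mathlib
import Cfsg.Agent.H645.FT.Grp

/-!
# Centric subgroups with automorphisms of odd order

`Grp.ess_inf`: if `Z(S) ≤ E ≤ S`, `C_S(E) ≤ E` and `E` has a nontrivial automorphism of odd order
(without quaternion configuration) then `E ∩ A = Z(S)` and `E` is not contained in `A`.
-/

set_option autoImplicit false

namespace Cfsg.Agent.H645.FT

open Cfsg Cfsg.FusionSystem Cfsg.Agent.H802 Cfsg.Agent.H617.FusInv Cfsg.Agent.H617.FusTwo
open Cfsg.Agent.H617.FusFour Cfsg.Agent.H617.FusMain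
open Cfsg.Agent.H745.MetaTwo (sq_of_cyclic)

variable {Ω : Type*} [Group Ω] {S A : Subgroup Ω} {x e y : Ω}

/-- There is no quaternion configuration for `α`. -/
def NQ (x : Ω) {E : Subgroup Ω} (α : MulAut E) : Prop :=
  ∀ q : E, (q : Ω) ∈ Subgroup.zpowers x → q * q ≠ 1 → q * q * (q * q) = 1 →
    α q * α q = q * q → q * α q ≠ α q * q * (q * q)

namespace Grp

theorem finA (h : Grp S A x e y) [Finite S] : Finite A :=
  Finite.of_injective _ (Subgroup.inclusion_injective h.le)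

/-- Generators of `E ∩ A` for `e ∈ E`. -/
theorem exists_gen_inf (h : Grp S A x e y) [Finite S] {E : Subgroup Ω} (heE : e ∈ E) :
    ∃ a ∈ Subgroup.zpowers x, a ∈ E ∧ ∀ v ∈ A, v ∈ E → ∃ i : ℕ, v = a ^ i ∨ v = a ^ i * e := by
  have hfin := h.finA
  have hfin2 : Finite (Subgroup.zpowers x) := Finite.of_injective _
    (Subgroup.inclusion_injective (Subgroup.zpowers_le.2 h.xA))
  have hcyc : IsCyclic ↥(Subgroup.zpowers x ⊓ E) :=
    isCyclic_of_injective (Subgroup.inclusion (inf_le_left : Subgroup.zpowers x ⊓ E ≤ _))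
      (Subgroup.inclusion_injective _)
  have hfin3 : Finite ↥(Subgroup.zpowers x ⊓ E) :=
    Finite.of_injective _ (Subgroup.inclusion_injective
      (inf_le_left : Subgroup.zpowers x ⊓ E ≤ Subgroup.zpowers x))
  obtain ⟨g, hg⟩ := hcyc.exists_generator
  have hpow : ∀ w ∈ Subgroup.zpowers x, w ∈ E → ∃ i : ℕ, w = (g : Ω) ^ i := by
    intro w hw hwE
    have h1 := hg ⟨w, hw, hwE⟩
    rw [← mem_powers_iff_mem_zpowers] at h1
    obtain ⟨i, hi⟩ := h1
    refine ⟨i, ?_⟩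
    have h2 := congrArg (Subtype.val) hi
    simpa using h2.symm
  refine ⟨g, g.2.1, g.2.2, fun v hv hvE => ?_⟩
  obtain ⟨j, rfl | rfl⟩ := h.gen v hv
  · obtain ⟨i, hi⟩ := hpow _ (Subgroup.npow_mem_zpowers x j) hvE
    exact ⟨i, Or.inl hi⟩
  · have h1 : x ^ j ∈ E := by
      have h2 := E.mul_mem hvE (E.inv_mem heE)
      rwa [mul_inv_cancel_right] at h2
    obtain ⟨i, hi⟩ := hpow _ (Subgroup.npow_mem_zpowers x j) h1
    exact ⟨i, Or.inr (by rw [← hi])⟩

theorem pgrp_of_le (h : Grp S A x e y) {E : Subgroup Ω} (hE : E ≤ S) : IsPGroup 2 E :=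
  h.pgrp.to_le hE

/-- An odd automorphism preserving `E ∩ A > Z(S)` is trivial. -/
theorem eq_one_of_inf (h : Grp S A x e y) [Finite S] {E : Subgroup Ω} (hE : E ≤ S)
    (hZ : Z S ≤ E) {α : MulAut E} (hodd : ¬ 2 ∣ orderOf α)
    (hinv : ∀ v : E, (v : Ω) ∈ A → ((α v : E) : Ω) ∈ A) {v : E} (hvA : (v : Ω) ∈ A)
    (hvZ : (v : Ω) ∉ Z S) : α = 1 := by
  have hfinE : Finite E := finite_of_le hE
  have h2 := h.pgrp_of_le hE
  obtain ⟨a, hax, haE, hgen⟩ := h.exists_gen_inf (hZ h.eZ)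
  have haA : a ∈ A := (Subgroup.zpowers_le.2 h.xA) hax
  have heE := hZ h.eZ
  have heA := h.Z_le_A h.eZ
  -- `α` fixes `E ∩ A`
  have hfix : ∀ w ∈ A.subgroupOf E, α w = w := by
    refine fix_of_gen h2 hodd (A.subgroupOf E) (fun w hw => hinv w hw) (a := ⟨a, haE⟩)
      (e := ⟨e, heE⟩) haA heA ?_ ?_ ?_ ?_
    · exact Subtype.ext (h.comm a haA e heA)
    · exact Subtype.ext h.ee
    · intro w hw
      obtain ⟨i, hi | hi⟩ := hgen w hw w.2
      · exact ⟨i, Or.inl (Subtype.ext (by simpa using hi))⟩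
      · exact ⟨i, Or.inr (Subtype.ext (by simpa using hi))⟩
    · intro haa
      have haa' : a * a = 1 := congrArg Subtype.val haa
      have haZ := h.sq_one_mem_Z hax haa'
      apply hvZ
      obtain ⟨i, hi | hi⟩ := hgen v hvA v.2
      · rw [hi]; exact (Z S).pow_mem haZ i
      · rw [hi]; exact (Z S).mul_mem ((Z S).pow_mem haZ i) h.eZ
  -- it acts trivially on the cosets
  have hnot : ∀ w : E, (w : Ω) ∉ A → ((α w : E) : Ω) ∉ A := by
    intro w hw hw'
    apply hw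
    have h3 : (⟨α w, trivial⟩ : {u : E // True}).1 = α w := rfl
    have h4 := hfix (α w) hw'
    have h5 : α w = w := α.injective h4
    rw [h5] at hw'
    exact hw'
  refine MulEquiv.ext fun w => ?_
  change α w = w
  by_cases hw : (w : Ω) ∈ A
  · exact hfix w hw
  · refine fix_of_div h2 hodd (hfix _ ?_)
    change ((w : Ω)⁻¹ * (α w : E)) ∈ A
    exact inv_mul_mem_of_relIndex_two h.idx (hE w.2) (hE (α w).2) hw (hnot w hw)

theorem ess_inf (h : Grp S A x e y) [Finite S] {E : Subgroup Ω} (hE : E ≤ S)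
    (hZ : Z S ≤ E) (hC : centralizerIn S E ≤ E) {α : MulAut E} (hodd : ¬ 2 ∣ orderOf α)
    (hα1 : α ≠ 1) (hNQ : NQ x α) :
    (∃ u ∈ E, u ∉ A) ∧ ∀ v ∈ E, v ∈ A → v ∈ Z S := by
  have hfinE : Finite E := finite_of_le hE
  have h2 := h.pgrp_of_le hE
  have hex : ∃ u ∈ E, u ∉ A := by
    by_contra hcon
    push Not at hcon
    have hxE : x ∈ E := hC ⟨h.le h.xA, Subgroup.mem_centralizer_iff.2 fun w hw =>
      h.comm w (hcon w hw) x h.xA⟩
    refine hα1 (h.eq_one_of_inf hE hZ hodd (fun v _ => hcon _ (α v).2) (v := ⟨x, hxE⟩) h.xA ?_)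
    intro hx
    exact h.nc ((mem_Z.1 hx).2 y h.yS)
  refine ⟨hex, ?_⟩
  obtain ⟨u, huE, huA⟩ := hex
  by_contra hcon
  push Not at hcon
  obtain ⟨v, hvE, hvA, hvZ⟩ := hcon
  -- the centre of `E`
  have hcen : ∀ t : E, (∀ w : E, w * t = t * w) ↔ (t : Ω) ∈ Z S := by
    intro t
    constructor
    · intro ht
      have htA : (t : Ω) ∈ A := by
        by_contra htA
        exact hvZ (h.mem_Z_of_comm hvA (hE t.2) htA
          (congrArg Subtype.val (ht ⟨v, hvE⟩)).symm)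
      exact h.mem_Z_of_comm htA (hE huE) huA (congrArg Subtype.val (ht ⟨u, huE⟩))
    · intro ht w
      exact Subtype.ext ((mem_Z.1 ht).2 w (hE w.2))
  have hcenα : ∀ t : E, ((α t : E) : Ω) ∈ Z S ↔ (t : Ω) ∈ Z S := by
    intro t
    rw [← hcen, ← hcen]
    constructor
    · intro ht w
      apply α.injective
      rw [map_mul, map_mul, ht]
    · intro ht w
      obtain ⟨w', rfl⟩ := α.surjective w
      rw [← map_mul, ← map_mul, ht]
  -- `E ∩ A` is not invariant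
  by_cases hinv : ∀ v : E, (v : Ω) ∈ A → ((α v : E) : Ω) ∈ A
  · exact hα1 (h.eq_one_of_inf hE hZ hodd hinv (v := ⟨v, hvE⟩) hvA hvZ)
  push Not at hinv
  obtain ⟨w, hwA, hw'⟩ := hinv
  -- elements of `A` outside `Z(S)` leave `A`
  have hout : ∀ p : E, (p : Ω) ∈ A → (p : Ω) ∉ Z S → ((α p : E) : Ω) ∉ A := by
    intro p hpA hpZ hp'
    apply hpZ
    rw [← hcenα]
    refine h.mem_Z_of_comm hp' (hE (α w).2) hw' ?_
    have h3 : w * p = p * w := Subtype.ext (h.comm w hwA p hpA)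
    have h4 : α w * α p = α p * α w := by rw [← map_mul, h3, map_mul]
    exact congrArg Subtype.val h4
  have hquot : ∀ p q : E, (p : Ω) ∈ A → (p : Ω) ∉ Z S → (q : Ω) ∈ A → (q : Ω) ∉ Z S →
      ((p * q : E) : Ω) ∈ Z S := by
    intro p q hpA hpZ hqA hqZ
    by_contra hcon
    refine hout (p * q) (A.mul_mem hpA hqA) hcon ?_
    rw [map_mul]
    exact (h.mul_mem_iff (hE (α p).2) (hE (α q).2)).2
      ⟨fun h5 => absurd h5 (hout p hpA hpZ), fun h5 => absurd h5 (hout q hqA hqZ)⟩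
  -- the generator `q`
  obtain ⟨a, hax, haE, hgen⟩ := h.exists_gen_inf (hZ h.eZ)
  have haA : a ∈ A := (Subgroup.zpowers_le.2 h.xA) hax
  have haZ : a ∉ Z S := by
    intro haZ
    apply hvZ
    obtain ⟨i, hi | hi⟩ := hgen v hvA hvE
    · rw [hi]; exact (Z S).pow_mem haZ i
    · rw [hi]; exact (Z S).mul_mem ((Z S).pow_mem haZ i) h.eZ
  set q : E := ⟨a, haE⟩ with hq
  set r : E := α q with hr
  set s : E := α r with hs
  have hrA : (r : Ω) ∉ A := hout q haA haZ
  have hqq : ((q * q : E) : Ω) ∈ Z S := hquot q q haA haZ haA haZ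
  have hrZ : (r : Ω) ∉ Z S := fun h3 => hrA (h.Z_le_A h3)
  -- `s ∉ A`
  have hsA : (s : Ω) ∉ A := by
    intro hsA
    -- `α² ` maps `q Z` to `q Z`
    have hstab : ∀ n : ℕ, (((α ^ (2 * n)) q : E) : Ω) ∈ A ∧ (((α ^ (2 * n)) q : E) : Ω) ∉ Z S := by
      intro n
      induction n with
      | zero => exact ⟨haA, haZ⟩
      | succ n ih =>
        obtain ⟨ih1, ih2⟩ := ih
        have h5 : (α ^ (2 * (n + 1))) q = α (α ((α ^ (2 * n)) q)) := by
          rw [show 2 * (n + 1) = 1 + (1 + 2 * n) by ring, pow_add, pow_one, MulAut.mul_apply,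
            pow_add, pow_one, MulAut.mul_apply]
        rw [h5]
        have h6 := hquot q⁻¹ ((α ^ (2 * n)) q) (A.inv_mem haA)
          (fun h7 => haZ (by simpa using (Z S).inv_mem h7)) ih1 ih2
        have h7 : ((α (α (q⁻¹ * (α ^ (2 * n)) q)) : E) : Ω) ∈ Z S := by
          rw [hcenα, hcenα]; exact h6
        have h8 : α (α ((α ^ (2 * n)) q)) = s * α (α (q⁻¹ * (α ^ (2 * n)) q)) := by
          rw [hs, hr, ← map_mul, ← map_mul, mul_inv_cancel_left]
        rw [h8]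
        have hsZ : (s : Ω) ∉ Z S := by
          rw [hs, hcenα]; exact hrZ
        constructor
        · exact A.mul_mem hsA (h.Z_le_A h7)
        · intro h9
          apply hsZ
          have h10 := (Z S).mul_mem h9 ((Z S).inv_mem h7)
          have h11 : ((s * α (α (q⁻¹ * (α ^ (2 * n)) q)) : E) : Ω) *
              (((α (α (q⁻¹ * (α ^ (2 * n)) q)) : E) : Ω))⁻¹ = s := by
            rw [Subgroup.coe_mul, mul_inv_cancel_right]
          rwa [h11] at h10
    obtain ⟨n, hn⟩ : ∃ n, orderOf α + 1 = 2 * n := by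
      have : Odd (orderOf α) := Nat.not_even_iff_odd.1 (fun h3 => hodd h3.two_dvd)
      obtain ⟨k, hk⟩ := this
      exact ⟨k + 1, by omega⟩
    have h3 := (hstab n).1
    rw [← hn, pow_succ, pow_orderOf_eq_one, one_mul] at h3
    exact hrA h3
  -- `s = r q z`
  obtain ⟨z, hz, hzs⟩ : ∃ z : E, (z : Ω) ∈ Z S ∧ s = r * q * z := by
    have h3 : ((r⁻¹ * s : E) : Ω) ∈ A :=
      inv_mul_mem_of_relIndex_two h.idx (hE r.2) (hE s.2) hrA hsA
    have h4 : ((r⁻¹ * s : E) : Ω) ∉ Z S := by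
      intro h5
      have h6 : ((q⁻¹ * r : E) : Ω) ∈ Z S := by
        rw [← hcenα, map_mul, map_inv]
        exact h5
      apply hrA
      have h7 := A.mul_mem haA (h.Z_le_A h6)
      have h8 : (a : Ω) * ((q⁻¹ * r : E) : Ω) = r := by
        change a * (a⁻¹ * (r : Ω)) = r
        group
      rwa [h8] at h7
    have h5 := hquot q⁻¹ (r⁻¹ * s) (A.inv_mem haA)
      (fun h7 => haZ (by simpa using (Z S).inv_mem h7)) h3 h4
    exact ⟨_, h5, by group⟩
  have hzc : ∀ w : E, w * z = z * w := (hcen z).2 hz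
  have hqqc : ∀ w : E, w * (q * q) = q * q * w := (hcen _).2 hqq
  -- the commutator
  set δ : E := r * q * r⁻¹ * q⁻¹ with hδ
  have hrq : r * q * r⁻¹ = y * a * y⁻¹ := by
    change (r : Ω) * a * (r : Ω)⁻¹ = y * a * y⁻¹
    exact h.conj_eq (hE r.2) hrA haA
  have hδA : (δ : Ω) ∈ A := by
    have h3 : (δ : Ω) = (r : Ω) * a * (r : Ω)⁻¹ * a⁻¹ := rfl
    rw [h3]
    exact A.mul_mem (h.conj_mem (hE r.2) haA) (A.inv_mem haA)
  have hδδ : δ * δ = 1 := by
    have h3 : r * q * r⁻¹ * (r * q * r⁻¹) = q * q := by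
      calc r * q * r⁻¹ * (r * q * r⁻¹) = r * (q * q) * r⁻¹ := by group
        _ = q * q := by rw [hqqc]; group
    have h4 : q⁻¹ * (r * q * r⁻¹) = r * q * r⁻¹ * q⁻¹ := Subtype.ext
      (h.comm _ (A.inv_mem haA) _ (h.conj_mem (hE r.2) haA))
    calc δ * δ = r * q * r⁻¹ * (q⁻¹ * (r * q * r⁻¹)) * q⁻¹ := by rw [hδ]; group
      _ = r * q * r⁻¹ * (r * q * r⁻¹ * q⁻¹) * q⁻¹ := by rw [h4]
      _ = (r * q * r⁻¹ * (r * q * r⁻¹)) * (q⁻¹ * q⁻¹) := by group
      _ = 1 := by rw [h3]; group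
  have hδE : (δ : Ω) ∈ Cfsg.Agent.H617.FusFour.E S := comm_mem (hE r.2) (h.le haA)
  have hδZ : (δ : Ω) ∈ Z S := (h.mem_Z_iff_sq hδE).2 (congrArg Subtype.val hδδ)
  have hδc : ∀ w : E, w * δ = δ * w := (hcen δ).2 hδZ
  have hδ1 : δ ≠ 1 := by
    intro h3
    apply haZ
    refine h.mem_Z_of_comm haA (hE r.2) hrA ?_
    have h4 : r * q = q * r := by
      calc r * q = δ * q * r := by rw [hδ]; group
        _ = q * r := by rw [h3, one_mul]
    exact congrArg Subtype.val h4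
  have hrqδ : r * q = q * r * δ := by
    calc r * q = δ * (q * r) := by rw [hδ]; group
      _ = _ := by rw [hδc]
  have hδinv : δ⁻¹ = δ := inv_eq_of_mul_eq_one_left hδδ
  -- `α δ = δ`
  have hαδ : α δ = δ := by
    have h3 : α δ = s * r * s⁻¹ * r⁻¹ := by
      rw [hδ, map_mul, map_mul, map_mul, map_inv, map_inv]
    rw [h3, hzs]
    calc r * q * z * r * (r * q * z)⁻¹ * r⁻¹ = r * q * (z * r) * z⁻¹ * q⁻¹ * r⁻¹ * r⁻¹ := by group
      _ = r * q * (r * z) * z⁻¹ * q⁻¹ * r⁻¹ * r⁻¹ := by rw [hzc]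
      _ = r * (q * r * δ) * δ⁻¹ * q⁻¹ * r⁻¹ * r⁻¹ := by group
      _ = r * (r * q) * δ⁻¹ * q⁻¹ * r⁻¹ * r⁻¹ := by rw [← hrqδ]
      _ = r * (r * (q * δ)) * q⁻¹ * r⁻¹ * r⁻¹ := by rw [hδinv]; group
      _ = r * (r * (δ * q)) * q⁻¹ * r⁻¹ * r⁻¹ := by rw [hδc]
      _ = r * (r * δ) * r⁻¹ * r⁻¹ := by group
      _ = r * (δ * r) * r⁻¹ * r⁻¹ := by rw [hδc r]
      _ = r * δ * r⁻¹ := by group
      _ = δ := by rw [hδc]; group
  -- `α` fixes `Z(S)`
  have hZfix : ∀ t : E, (t : Ω) ∈ Z S → α t = t := by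
    obtain ⟨b, hbx, hbZ, hgen'⟩ := h.exists_gen_inf (E := Z S) h.eZ
    intro t ht
    refine fix_of_gen' h2 hodd ((Z S).subgroupOf E) (fun w hw => (hcenα w).2 hw)
      (a := ⟨b, hZ hbZ⟩) (e := ⟨e, hZ h.eZ⟩) hbZ h.eZ ?_ ?_ ?_ (d := δ) hδZ hδ1 hαδ t ht
    · exact Subtype.ext ((mem_Z.1 h.eZ).2 b (hE (hZ hbZ)))
    · exact Subtype.ext h.ee
    · intro w hw
      obtain ⟨i, hi | hi⟩ := hgen' w (h.Z_le_A hw) hw
      · exact ⟨i, Or.inl (Subtype.ext (by simpa using hi))⟩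
      · exact ⟨i, Or.inr (Subtype.ext (by simpa using hi))⟩
  have hrr : r * r = q * q := by
    rw [hr, ← map_mul]
    exact hZfix _ hqq
  have hss : s * s = q * q := by
    rw [hs, ← map_mul, hrr]
    exact hZfix _ hqq
  -- `q² z² δ = 1`
  have hmain : q * q * (z * z) * δ = 1 := by
    have h3 : s * s = q * q * (q * q) * (z * z) * δ := by
      calc s * s = r * q * (z * (r * q)) * z := by rw [hzs]; group
        _ = r * q * ((r * q) * z) * z := by rw [hzc (r * q)]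
        _ = r * (q * r * δ) * δ⁻¹ * q * (z * z) := by group
        _ = r * (r * q) * δ⁻¹ * q * (z * z) := by rw [← hrqδ]
        _ = (r * r) * (q * δ) * q * (z * z) := by rw [hδinv]; group
        _ = (q * q) * (δ * q) * q * (z * z) := by rw [hrr, hδc]
        _ = (q * q) * (δ * ((q * q) * (z * z))) := by group
        _ = (q * q) * (((q * q) * (z * z)) * δ) := by rw [← hδc]
        _ = _ := by group
    rw [hss] at h3
    have h4 : q * q * (q * q * (z * z) * δ) = q * q := by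
      calc q * q * (q * q * (z * z) * δ) = q * q * (q * q) * (z * z) * δ := by
            simp only [mul_assoc]
        _ = q * q := h3.symm
    exact mul_left_cancel (h4.trans (mul_one _).symm)
  -- `z²` is an even power of `q²`
  obtain ⟨k, hk⟩ : ∃ k : ℕ, z * z = (q * q) ^ (2 * k) := by
    obtain ⟨i, hi⟩ := hgen z (h.Z_le_A hz) z.2
    have hpow : ∀ i : ℕ, (a * a) ^ i = a ^ i * a ^ i := fun i => (Commute.refl a).mul_pow i
    have hzz : (z : Ω) * z = (a * a) ^ i := by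
      rcases hi with hi | hi
      · rw [hi, hpow]
      · have hc : e * a ^ i = a ^ i * e :=
          h.comm e (h.Z_le_A h.eZ) _ (A.pow_mem haA i)
        rw [hi, show a ^ i * e * (a ^ i * e) = a ^ i * (e * a ^ i) * e by group, hc,
          show a ^ i * (a ^ i * e) * e = a ^ i * a ^ i * (e * e) by group, h.ee, mul_one, hpow]
    -- `i` is even
    have hai : a ^ i ∈ Z S := by
      rcases hi with hi | hi
      · rw [← hi]; exact hz
      · have h3 := (Z S).mul_mem hz ((Z S).inv_mem h.eZ)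
        rwa [hi, mul_inv_cancel_right] at h3
    have hieven : Even i := by
      by_contra hcon
      rw [Nat.not_even_iff_odd] at hcon
      obtain ⟨j, hj⟩ := hcon
      apply haZ
      have h4 : a * a ∈ Z S := hqq
      have h5 : a ^ i * ((a * a) ^ j)⁻¹ = a := by
        rw [hpow, hj, pow_add, pow_one, two_mul, pow_add]
        group
      rw [← h5]
      exact (Z S).mul_mem hai ((Z S).inv_mem ((Z S).pow_mem h4 j))
    obtain ⟨j, hj⟩ := hieven
    refine ⟨j, Subtype.ext ?_⟩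
    rw [Subgroup.coe_mul, hzz, hj, ← two_mul]
    rfl
  have hqq1 : (q * q) ^ (2 * k + 1) * δ = 1 := by
    rw [pow_succ', ← hk]; exact hmain
  -- `q⁴ = 1`
  have hq4 : q * q * (q * q) = 1 := by
    have h3 : ((q * q) ^ (2 * k + 1)) ^ 2 = 1 := by
      have h4 : (q * q) ^ (2 * k + 1) = δ := by
        rw [mul_eq_one_iff_eq_inv, hδinv] at hqq1
        exact hqq1
      rw [h4, pow_two, hδδ]
    rw [← pow_mul, mul_comm, pow_mul] at h3
    have h4 : orderOf ((q * q) ^ 2) ∣ 2 * k + 1 := orderOf_dvd_of_pow_eq_one h3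
    obtain ⟨j, hj⟩ := IsPGroup.iff_orderOf.1 h2 ((q * q) ^ 2)
    rw [hj] at h4
    have hj0 : j = 0 := by
      by_contra hj0
      have h5 : 2 ∣ 2 ^ j := dvd_pow_self 2 hj0
      have h6 := h5.trans h4
      omega
    rw [hj0, pow_zero, orderOf_eq_one_iff, pow_two] at hj
    exact hj
  have hqδ : q * q = δ := by
    have h3 : (q * q) ^ (2 * k + 1) = q * q := by
      rw [pow_succ, pow_mul, pow_two, hq4, one_pow, one_mul]
    rw [h3, mul_eq_one_iff_eq_inv, hδinv] at hqq1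
    exact hqq1
  refine hNQ q hax ?_ hq4 hrr ?_
  · rw [hqδ]; exact hδ1
  · change q * r = r * q * (q * q)
    rw [hqδ, hrqδ, mul_assoc, hδδ, mul_one]

end Grp

end Cfsg.Agent.H645.FT
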