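import Mathlib
import Cfsg.Agent.H645.FT.Ess
import Cfsg.Agent.H352.FTF1

/-!
# The four-group of an essential subgroup
-/

set_option autoImplicit false

namespace Cfsg.Agent.H645.FT

open Cfsg Cfsg.FusionSystem Cfsg.Agent.H802 Cfsg.Agent.H617.FusInv Cfsg.Agent.H617.FusTwo
open Cfsg.Agent.H617.FusFour Cfsg.Agent.H617.FusMain
open Cfsg.Agent.H745.MetaTwo (sq_of_cyclic)

variable {Ω : Type*} [Group Ω] {S A : Subgroup Ω} {x e y : Ω}

/-- `E` is fully normalized and centric and has a nontrivial automorphism of odd order. -/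
def Ess (F : FusionSystem S) (E : Subgroup Ω) : Prop :=
  F.IsFullyNormalized E ∧ F.IsCentric E ∧ ∃ α ∈ F.autGroup E, ¬ 2 ∣ orderOf α ∧ α ≠ 1

/-- There is no quaternion configuration in the system. -/
def NQF (x : Ω) (F : FusionSystem S) : Prop :=
  ∀ E : Subgroup Ω, E ≤ S → ∀ α ∈ F.autGroup E, ¬ 2 ∣ orderOf α → NQ x α

/-- The four-group `K` of the subgroup `E`. -/
structure Kl (F : FusionSystem S) (d : Ω) (E K : Subgroup Ω) : Prop where
  le : K ≤ E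
  card : Nat.card K = 4
  dK : d ∈ K
  sq : ∀ v ∈ K, v * v = 1
  mem : ∀ α ∈ F.autGroup E, ¬ 2 ∣ orderOf α → ∀ v : E, (v : Ω)⁻¹ * (α v : E) ∈ K
  fix : ∀ α ∈ F.autGroup E, ¬ 2 ∣ orderOf α → α ≠ 1 → ∀ v : E, α v = v → (v : Ω) ∈ Z S
  d_ne : ∀ α ∈ F.autGroup E, ¬ 2 ∣ orderOf α → α ≠ 1 → ∀ v : E, (v : Ω) = d → α v ≠ v
  surj : ∀ α ∈ F.autGroup E, ¬ 2 ∣ orderOf α → α ≠ 1 → ∀ k ∈ K, ∃ v : E,
    (v : Ω)⁻¹ * (α v : E) = k
  out : ∃ k ∈ K, k ∉ Z S

theorem two_not_dvd {n : ℕ} (h : ¬ 2 ∣ n) : Odd n :=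
  Nat.not_even_iff_odd.1 (fun h3 => h h3.two_dvd)

namespace Grp

theorem ess_inf' (h : Grp S A x e y) [Finite S] {F : FusionSystem S} (hNQ : NQF x F)
    {E : Subgroup Ω} (hE : Ess F E) :
    (∃ u ∈ E, u ∉ A) ∧ ∀ v ∈ E, v ∈ A → v ∈ Z S := by
  obtain ⟨hn, hc, α, hα, hodd, hα1⟩ := hE
  exact h.ess_inf hn.1 (Z_le_of_isCentric hc) (hc.2 E (isConj_refl F hn.1)) hodd hα1
    (hNQ E hn.1 α hα hodd)

/-- Elements of `E` outside `A` differ by central elements. -/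
theorem inv_mul_mem_Z (h : Grp S A x e y) {E : Subgroup Ω} (hE : E ≤ S)
    (hZ : ∀ v ∈ E, v ∈ A → v ∈ Z S) {u v : Ω} (hu : u ∈ E) (hv : v ∈ E) (huA : u ∉ A)
    (hvA : v ∉ A) : u⁻¹ * v ∈ Z S :=
  hZ _ (E.mul_mem (E.inv_mem hu) hv) (inv_mul_mem_of_relIndex_two h.idx (hE hu) (hE hv) huA hvA)

/-- Conjugation by an element of `A`. -/
theorem conj_out (h : Grp S A x e y) {a u : Ω} (ha : a ∈ A) (hu : u ∈ S) (huA : u ∉ A) :
    a * u * a⁻¹ = u * cm y a := by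
  have h1 : u⁻¹ ∈ S := S.inv_mem hu
  have h2 : u⁻¹ ∉ A := fun h3 => huA (by simpa using A.inv_mem h3)
  have h3 := h.conj_eq h1 h2 ha
  unfold cm
  rw [← h3]
  group

/-- The involution of `⟨x⟩`. -/
theorem exists_omega (h : Grp S A x e y) [Finite S] :
    ∃ w ∈ Subgroup.zpowers x, w ≠ 1 ∧ w * w = 1 := by
  have hfinA := h.finA
  have hA : IsPGroup 2 A := h.pgrp.to_le h.le
  have hxx : x * x ∈ A := A.mul_mem h.xA h.xA
  obtain ⟨k, hk⟩ := IsPGroup.iff_orderOf.1 hA ⟨x * x, hxx⟩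
  rw [Subgroup.orderOf_mk] at hk
  have hk0 : k ≠ 0 := by
    rintro rfl
    rw [pow_zero, orderOf_eq_one_iff] at hk
    exact h.x4 hk
  refine ⟨(x * x) ^ 2 ^ (k - 1), Subgroup.pow_mem _ (Subgroup.mul_mem _
    (Subgroup.mem_zpowers x) (Subgroup.mem_zpowers x)) _, ?_, ?_⟩
  · intro h1
    have h5 := orderOf_dvd_of_pow_eq_one h1
    rw [hk] at h5
    have h6 := (Nat.pow_dvd_pow_iff_le_right (by norm_num : 1 < 2)).1 h5
    omega
  · rw [← pow_add, ← two_mul, ← pow_succ', Nat.sub_add_cancel (Nat.one_le_iff_ne_zero.2 hk0),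
      ← hk, pow_orderOf_eq_one]

/-- The involutions of `A`. -/
theorem invol_cases (h : Grp S A x e y) [Finite S] {d v w : Ω} (hd : d ∈ A) (hdd : d * d = 1)
    (hd1 : d ≠ 1) (hv : v ∈ A) (hw : w ∈ A) (hvv : v * v = 1) (hww : w * w = 1) (hv1 : v ≠ 1)
    (hvd : v ≠ d) (hw1 : w ≠ 1) (hwd : w ≠ d) : w = v ∨ w = v * d := by
  obtain ⟨o, ho, ho1, hoo⟩ := h.exists_omega
  have heA := h.Z_le_A h.eZ
  have hoA : o ∈ A := (Subgroup.zpowers_le.2 h.xA) ho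
  have hfinA := h.finA
  have key : ∀ v ∈ A, v * v = 1 → v = 1 ∨ v = o ∨ v = e ∨ v = o * e := by
    intro v hv hvv
    obtain ⟨i, hi⟩ := h.gen v hv
    have h1 := sq_one_cases (Q := A) (a := ⟨x, h.xA⟩) (e := ⟨e, heA⟩) (w := ⟨o, hoA⟩)
      (v := ⟨v, hv⟩) (Subtype.ext (h.comm x h.xA e heA)) (Subtype.ext h.ee) ?_ ?_ (Subtype.ext hoo)
      inferInstance (i := i) ?_ (Subtype.ext hvv)
    · rcases h1 with h2 | h2 | h2 | h2
      · exact Or.inl (congrArg Subtype.val h2)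
      · exact Or.inr (Or.inl (congrArg Subtype.val h2))
      · exact Or.inr (Or.inr (Or.inl (congrArg Subtype.val h2)))
      · exact Or.inr (Or.inr (Or.inr (congrArg Subtype.val h2)))
    · obtain ⟨k, hk⟩ := Subgroup.mem_zpowers_iff.1 ho
      exact Subgroup.mem_zpowers_iff.2 ⟨k, Subtype.ext (by simpa using hk)⟩
    · intro h2
      exact ho1 (congrArg Subtype.val h2)
    · rcases hi with hi | hi
      · exact Or.inl (Subtype.ext (by simpa using hi))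
      · exact Or.inr (Subtype.ext (by simpa using hi))
  exact klein_cases hoo h.ee (h.comm o hoA e heA) (key d hd hdd) (key v hv hvv) (key w hw hww)
    hd1 hv1 hvd hw1 hwd

/-- `E` is abelian. -/
theorem ess_comm (h : Grp S A x e y) {E : Subgroup Ω} (hE : E ≤ S)
    (hZ : ∀ v ∈ E, v ∈ A → v ∈ Z S) {v w : Ω} (hv : v ∈ E) (hw : w ∈ E) : v * w = w * v := by
  by_cases hvA : v ∈ A
  · exact ((mem_Z.1 (hZ v hv hvA)).2 w (hE hw)).symm
  by_cases hwA : w ∈ A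
  · exact (mem_Z.1 (hZ w hw hwA)).2 v (hE hv)
  have h1 := h.inv_mul_mem_Z hE hZ hv hw hvA hwA
  have h2 := (mem_Z.1 h1).2 v (hE hv)
  calc v * w = v * (v * (v⁻¹ * w)) := by group
    _ = v * (v⁻¹ * w * v) := by rw [h2]
    _ = w * v := by group

/-- Conjugation by `a ∈ A` on `E`. -/
theorem conj_cases (h : Grp S A x e y) {E : Subgroup Ω} (hE : E ≤ S) {a v : Ω} (ha : a ∈ A)
    (hv : v ∈ E) : (v ∈ A → a * v * a⁻¹ = v) ∧ (v ∉ A → a * v * a⁻¹ = v * cm y a) := by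
  refine ⟨fun hvA => ?_, fun hvA => h.conj_out ha (hE hv) hvA⟩
  rw [h.comm a ha v hvA]
  group

theorem mem_normalizer_of_cm (h : Grp S A x e y) {E : Subgroup Ω} (hE : E ≤ S) {a : Ω}
    (ha : a ∈ A) (hc : cm y a ∈ E) :
    a ∈ Subgroup.normalizer (E : Set Ω) := by
  have key : ∀ a ∈ A, cm y a ∈ E → ∀ v ∈ E, a * v * a⁻¹ ∈ E := by
    intro a ha hc v hv
    by_cases hvA : v ∈ A
    · rw [(h.conj_cases hE ha hv).1 hvA]; exact hv
    · rw [(h.conj_cases hE ha hv).2 hvA]; exact E.mul_mem hv hc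
  rw [Subgroup.mem_normalizer_iff]
  intro v
  refine ⟨key a ha hc v, fun hv => ?_⟩
  have h1 : cm y a⁻¹ ∈ E := by
    have h2 : cm y a * cm y a⁻¹ = 1 := by
      rw [← h.cm_mul ha (A.inv_mem ha), mul_inv_cancel]
      simp [cm]
    rw [← inv_eq_of_mul_eq_one_right h2]
    exact E.inv_mem hc
  have h3 := key a⁻¹ (A.inv_mem ha) h1 _ hv
  have h4 : a⁻¹ * (a * v * a⁻¹) * a⁻¹⁻¹ = v := by group
  rwa [h4] at h3

theorem exists_kl (h : Grp S A x e y) [Finite S] {F : FusionSystem S} (hF : F.IsSaturated 2)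
    (hNQ : NQF x F) {d : Ω} (hdE : d ∈ Cfsg.Agent.H617.FusFour.E S) (hd1 : d ≠ 1)
    (hdd : d * d = 1) (hdZ : d ∈ Z S)
    (hdu : ∀ s ∈ Cfsg.Agent.H617.FusFour.E S, s ∈ Z S → s = 1 ∨ s = d)
    {E : Subgroup Ω} (hE : Ess F E) : ∃ K, Kl F d E K := by
  have hp : Fact (Nat.Prime 2) := ⟨Nat.prime_two⟩
  obtain ⟨⟨u, huE, huA⟩, hEZ⟩ := h.ess_inf' hNQ hE
  obtain ⟨hn, hc, α, hα, hodd, hα1⟩ := hE
  have hES := hn.1
  have hZE : Z S ≤ E := Z_le_of_isCentric hc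
  have hfinE : Finite E := finite_of_le hES
  have h2 := h.pgrp_of_le hES
  have hab : ∀ a b : E, a * b = b * a := fun a b =>
    Subtype.ext (h.ess_comm hES hEZ a.2 b.2)
  have hAZ : ∀ v : E, (v : Ω) ∈ A ↔ v ∈ (Z S).subgroupOf E := fun v =>
    ⟨fun h1 => hEZ v v.2 h1, fun h1 => h.Z_le_A h1⟩
  -- the index of the centre
  have hidx : ((Z S).subgroupOf E).index = 2 := by
    rw [Subgroup.index_eq_two_iff]
    refine ⟨⟨u, huE⟩, fun b => ?_⟩
    rw [← hAZ, ← hAZ]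
    have h1 := h.mul_mem_iff (hES b.2) (hES huE)
    change Xor ((b : Ω) * u ∈ A) _
    rw [h1]
    by_cases hb : (b : Ω) ∈ A
    · exact Or.inr ⟨hb, fun h3 => huA (h3.1 hb)⟩
    · exact Or.inl ⟨⟨fun h3 => absurd h3 hb, fun h3 => absurd h3 huA⟩, hb⟩
  -- the automorphism `τ`
  obtain ⟨a, ha, hda⟩ := h.exists_cm hdE
  have han : a ∈ Subgroup.normalizer (E : Set Ω) :=
    h.mem_normalizer_of_cm hES ha (hda ▸ hZE hdZ)
  obtain ⟨τ, hτ, hτi, hτs⟩ := exists_conjAut_mem (F := F) hES (h.le ha) han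
  have hτA : ∀ v : E, (v : Ω) ∈ A → τ v = v := fun v hv =>
    Subtype.ext ((hτs v).trans ((h.conj_cases hES ha v.2).1 hv))
  have hτn : ∀ v : E, (v : Ω) ∉ A → τ v = v * ⟨d, hZE hdZ⟩ := fun v hv =>
    Subtype.ext ((hτs v).trans (((h.conj_cases hES ha v.2).2 hv).trans (by rw [← hda]; rfl)))
  have hdA : d ∈ A := h.Z_le_A hdZ
  have hττ : τ * τ = 1 := by
    refine MulEquiv.ext fun v => ?_
    rw [MulAut.mul_apply, MulAut.one_apply]
    by_cases hv : (v : Ω) ∈ A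
    · rw [hτA v hv, hτA v hv]
    · rw [hτn v hv, map_mul, hτn v hv, hτA ⟨d, hZE hdZ⟩ hdA, mul_assoc]
      rw [show (⟨d, hZE hdZ⟩ : E) * ⟨d, hZE hdZ⟩ = 1 from Subtype.ext hdd, mul_one]
  -- `Aut_S(E)` has order at most two
  have hind : ∀ β ∈ autInducedBy S E, β = 1 ∨ β = τ := by
    intro β hβ
    obtain ⟨g, hg, hgβ⟩ := (mem_autInducedBy_iff S E β).1 hβ
    obtain ⟨b, hb, hbβ⟩ : ∃ b ∈ A, ∀ v : E, ((β v : E) : Ω) = b * v * b⁻¹ := by
      by_cases hgA : g ∈ A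
      · exact ⟨g, hgA, hgβ⟩
      · refine ⟨u⁻¹ * g, inv_mul_mem_of_relIndex_two h.idx (hES huE) hg huA hgA, fun v => ?_⟩
        have h4 := h.ess_comm hES hEZ huE (β v).2
        calc ((β v : E) : Ω) = u⁻¹ * (u * (β v : E)) := by group
          _ = u⁻¹ * (β v : E) * u := by rw [h4]; group
          _ = u⁻¹ * (g * v * g⁻¹) * u := by rw [hgβ]
          _ = _ := by group
    have hcb : cm y b = 1 ∨ cm y b = d := by
      refine hdu _ (h.cm_mem hb) (hEZ _ ?_ (h.cm_mem_A hb))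
      have h3 := hbβ ⟨u, huE⟩
      rw [(h.conj_cases hES hb huE).2 huA] at h3
      have h4 : cm y b = u⁻¹ * ((β ⟨u, huE⟩ : E) : Ω) := by rw [h3]; group
      rw [h4]
      exact E.mul_mem (E.inv_mem huE) (β ⟨u, huE⟩).2
    rcases hcb with h3 | h3
    · left
      refine MulEquiv.ext fun v => Subtype.ext ?_
      rw [hbβ, MulAut.one_apply]
      by_cases hv : (v : Ω) ∈ A
      · exact (h.conj_cases hES hb v.2).1 hv
      · rw [(h.conj_cases hES hb v.2).2 hv, h3, mul_one]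
    · right
      refine MulEquiv.ext fun v => Subtype.ext ?_
      rw [hbβ]
      by_cases hv : (v : Ω) ∈ A
      · rw [(h.conj_cases hES hb v.2).1 hv, hτA v hv]
      · rw [(h.conj_cases hES hb v.2).2 hv, h3, hτn v hv]; rfl
  have h4 : ¬ 4 ∣ Nat.card (F.autGroup E) := by
    intro h4
    have hfa := isFullyAutomized_of_isFullyNormalized h.pgrp hF hn
    have hcard := (isFullyAutomized_iff_card h.pgrp hES).1 hfa
    have hle : Nat.card (autInducedBy S E) ∣ 2 := by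
      have h5 : autInducedBy S E ≤ Subgroup.zpowers τ := by
        intro β hβ
        rcases hind β hβ with rfl | rfl
        · exact Subgroup.one_mem _
        · exact Subgroup.mem_zpowers _
      have h6 := Subgroup.card_dvd_of_le h5
      rw [Nat.card_zpowers] at h6
      exact h6.trans (orderOf_dvd_of_pow_eq_one (by rw [pow_two, hττ]))
    have h5 : 2 ≤ (Nat.card (F.autGroup E)).factorization 2 := by
      rw [← Nat.Prime.pow_dvd_iff_le_factorization Nat.prime_two Nat.card_pos.ne']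
      exact h4
    have h6 : 4 ∣ Nat.card (autInducedBy S E) := by
      rw [hcard]
      exact pow_dvd_pow 2 h5
    have h7 := Nat.le_of_dvd (by norm_num) (h6.trans hle)
    omega
  have hτZ : ∀ v, τ v = v ↔ v ∈ (Z S).subgroupOf E := by
    intro v
    rw [← hAZ]
    constructor
    · intro h3
      by_contra hv
      rw [hτn v hv] at h3
      exact hd1 (congrArg Subtype.val (mul_eq_left.1 h3))
    · exact hτA v
  obtain ⟨K, hK4, hdK, hsq, hK⟩ := Cfsg.Agent.H352.FTF1.exists_klein h2 hab (F.autGroup E) hτ hττ h4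
    ((Z S).subgroupOf E) hidx hτZ (d := ⟨d, hZE hdZ⟩) (fun v hv => hτn v (by rwa [hAZ]))
    (by
      intro v hv w hw hvv hww hv1 hvd hw1 hwd
      have h5 := h.invol_cases hdA hdd hd1 (h.Z_le_A hv) (h.Z_le_A hw)
        (congrArg Subtype.val hvv) (congrArg Subtype.val hww) (fun h6 => hv1 (Subtype.ext h6))
        (fun h6 => hvd (Subtype.ext h6)) (fun h6 => hw1 (Subtype.ext h6))
        (fun h6 => hwd (Subtype.ext h6))
      rcases h5 with h6 | h6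
      · exact Or.inl (Subtype.ext h6)
      · exact Or.inr (Subtype.ext h6))
    ⟨α, hα, hodd, hα1⟩
  refine ⟨K.map E.subtype, ⟨?_, ?_, ?_, ?_, ?_, ?_, ?_, ?_, ?_⟩⟩
  · rintro _ ⟨v, -, rfl⟩
    exact v.2
  · rw [← hK4]
    exact Nat.card_congr (K.equivMapOfInjective _ E.subtype_injective).symm.toEquiv
  · exact ⟨⟨d, hZE hdZ⟩, hdK, rfl⟩
  · rintro _ ⟨v, hv, rfl⟩
    exact congrArg Subtype.val (hsq v hv)
  · intro β hβ hβo v
    exact ⟨v⁻¹ * β v, (hK β hβ hβo).1 v, rfl⟩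
  · intro β hβ hβo hβ1 v hv
    exact ((hK β hβ hβo).2 hβ1).1 v hv
  · intro β hβ hβo hβ1 v hv
    have h5 : v = ⟨d, hZE hdZ⟩ := Subtype.ext hv
    rw [h5]
    exact ((hK β hβ hβo).2 hβ1).2.1
  · rintro β hβ hβo hβ1 _ ⟨k, hk, rfl⟩
    obtain ⟨v, hv⟩ := ((hK β hβ hβo).2 hβ1).2.2 k hk
    exact ⟨v, congrArg Subtype.val hv⟩
  · by_contra hcon
    push Not at hcon
    have hKZ : ∀ k ∈ K, (k : Ω) ∈ Z S := fun k hk => hcon k ⟨k, hk, rfl⟩
    obtain ⟨hmem, hrest⟩ := hK α hα hodd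
    obtain ⟨hfix, -, -⟩ := hrest hα1
    obtain ⟨-, -, hsurj⟩ := hrest hα1
    let g : K → K := fun k => ⟨(k : E)⁻¹ * α k, hmem k⟩
    have hginj : Function.Injective g := by
      intro k k' hkk
      have h5 : (k : E)⁻¹ * α k = (k' : E)⁻¹ * α k' := congrArg Subtype.val hkk
      have h6 : α ((k : E) * (k' : E)⁻¹) = (k : E) * (k' : E)⁻¹ := by
        rw [map_mul, map_inv]
        have h7 : α (k : E) = (k : E) * ((k' : E)⁻¹ * α k') := by rw [← h5]; group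
        rw [h7, mul_assoc, mul_assoc, mul_inv_cancel, mul_one]
      obtain ⟨v, hv⟩ := hsurj _ (K.mul_mem k.2 (K.inv_mem k'.2))
      have h7 : α v = v := fix_of_div h2 hodd (by rw [hv, h6])
      rw [h7, inv_mul_cancel] at hv
      exact Subtype.ext (mul_inv_eq_one.1 hv.symm)
    have hgsurj : Function.Surjective g := Finite.injective_iff_surjective.1 hginj
    obtain ⟨k, hk⟩ := hgsurj ⟨(⟨u, huE⟩ : E)⁻¹ * α ⟨u, huE⟩, hmem _⟩
    have h5 : (k : E)⁻¹ * α k = (⟨u, huE⟩ : E)⁻¹ * α ⟨u, huE⟩ := congrArg Subtype.val hk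
    have h6 : α ((k : E) * (⟨u, huE⟩ : E)⁻¹) = (k : E) * (⟨u, huE⟩ : E)⁻¹ := by
      rw [map_mul, map_inv]
      have h7 : α (k : E) = (k : E) * ((⟨u, huE⟩ : E)⁻¹ * α ⟨u, huE⟩) := by rw [← h5]; group
      rw [h7, mul_assoc, mul_assoc, mul_inv_cancel, mul_one]
    have h7 : ((k : E) * (⟨u, huE⟩ : E)⁻¹ : E) ∈ (Z S).subgroupOf E := hfix _ h6
    apply huA
    have h8 := (Z S).mul_mem ((Z S).inv_mem h7) (hKZ k k.2)
    have h9 : (((k : E) * (⟨u, huE⟩ : E)⁻¹ : E) : Ω)⁻¹ * (k : E) = u := by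
      change ((k : E) * u⁻¹ : Ω)⁻¹ * (k : E) = u
      group
    have h10 : u ∈ Z S := by
      rw [← h9]
      exact h8
    exact h.Z_le_A h10

end Grp

end Cfsg.Agent.H645.FT
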