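import Mathlib
import Cfsg.Agent.H645.FT.Klein

/-!
# The two cosets of `[S, S] Z(S)` outside `A`

`NS S = [S, S] Z(S)`, of index two in `A`.

* `Grp.inv_mul_mem_E`: the involutions of the four-groups in the same coset are congruent modulo
  `[S, S]`.
-/

set_option autoImplicit false

namespace Cfsg.Agent.H645.FT

open Cfsg Cfsg.FusionSystem Cfsg.Agent.H802 Cfsg.Agent.H617.FusInv Cfsg.Agent.H617.FusTwo
open Cfsg.Agent.H617.FusFour Cfsg.Agent.H617.FusMain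
open Cfsg.Agent.H745.MetaTwo (sq_of_cyclic)

variable {Ω : Type*} [Group Ω] {S A : Subgroup Ω} {x e y : Ω}

/-- `[S, S] Z(S)`. -/
def NS (S : Subgroup Ω) : Subgroup Ω where
  carrier := {v | ∃ s ∈ Cfsg.Agent.H617.FusFour.E S, ∃ z ∈ Z S, v = s * z}
  one_mem' := ⟨1, Subgroup.one_mem _, 1, Subgroup.one_mem _, (mul_one 1).symm⟩
  mul_mem' := by
    rintro _ _ ⟨s, hs, z, hz, rfl⟩ ⟨s', hs', z', hz', rfl⟩
    refine ⟨s * s', Subgroup.mul_mem _ hs hs', z * z', Subgroup.mul_mem _ hz hz', ?_⟩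
    have h1 := (mem_Z.1 hz).2 s' (E_le hs')
    calc s * z * (s' * z') = s * (z * s') * z' := by group
      _ = s * (s' * z) * z' := by rw [h1]
      _ = _ := by group
  inv_mem' := by
    rintro _ ⟨s, hs, z, hz, rfl⟩
    refine ⟨s⁻¹, Subgroup.inv_mem _ hs, z⁻¹, Subgroup.inv_mem _ hz, ?_⟩
    have h1 := (mem_Z.1 (Subgroup.inv_mem _ hz)).2 s⁻¹ (Subgroup.inv_mem _ (E_le hs))
    rw [mul_inv_rev, h1]

theorem mem_NS {v : Ω} : v ∈ NS S ↔
    ∃ s ∈ Cfsg.Agent.H617.FusFour.E S, ∃ z ∈ Z S, v = s * z := Iff.rfl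

theorem E_le_NS : Cfsg.Agent.H617.FusFour.E S ≤ NS S := fun s hs =>
  ⟨s, hs, 1, Subgroup.one_mem _, (mul_one s).symm⟩

theorem Z_le_NS : Z S ≤ NS S := fun z hz => ⟨1, Subgroup.one_mem _, z, hz, (one_mul z).symm⟩

theorem NS_le : NS S ≤ S := by
  rintro _ ⟨s, hs, z, hz, rfl⟩
  exact S.mul_mem (E_le hs) (Z_le hz)

theorem inv_mul_conj_mem_E {g v : Ω} (hg : g ∈ S) (hv : v ∈ S) :
    v⁻¹ * (g * v * g⁻¹) ∈ Cfsg.Agent.H617.FusFour.E S := by
  have h1 := comm_mem (S.inv_mem hv) hg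
  have h2 : v⁻¹ * g * v⁻¹⁻¹ * g⁻¹ = v⁻¹ * (g * v * g⁻¹) := by group
  rwa [h2] at h1

namespace Grp

theorem NS_le_A (h : Grp S A x e y) : NS S ≤ A := by
  rintro _ ⟨s, hs, z, hz, rfl⟩
  exact A.mul_mem (h.E_le_A hs) (h.Z_le_A hz)

theorem cm_inv (h : Grp S A x e y) {a : Ω} (ha : a ∈ A) : cm y a⁻¹ = (cm y a)⁻¹ := by
  rw [eq_inv_iff_mul_eq_one, ← h.cm_mul (A.inv_mem ha) ha, inv_mul_cancel]
  simp [cm]

/-- `cm y s = s⁻²` for `s ∈ [S, S]`. -/
theorem cm_E (h : Grp S A x e y) {s : Ω} (hs : s ∈ Cfsg.Agent.H617.FusFour.E S) :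
    cm y s = s⁻¹ * s⁻¹ := by
  unfold cm
  rw [h.conj_E h.yS h.yA hs]

theorem mem_NS_of_cm (h : Grp S A x e y) {a s : Ω} (ha : a ∈ A)
    (hs : s ∈ Cfsg.Agent.H617.FusFour.E S) (hc : cm y a = s * s) : a ∈ NS S := by
  have hsA := h.E_le_A hs
  have h1 : cm y (a * s) = 1 := by
    rw [h.cm_mul ha hsA, h.cm_E hs, hc]
    group
  rw [h.cm_eq_one_iff (A.mul_mem ha hsA)] at h1
  refine ⟨s⁻¹, Subgroup.inv_mem _ hs, a * s, h1, ?_⟩
  rw [h.comm a ha s hsA]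
  group

theorem x_mul_x_mem (h : Grp S A x e y) : x * x ∈ NS S := by
  refine h.mem_NS_of_cm (A.mul_mem h.xA h.xA) (h.cm_mem h.xA) ?_
  rw [h.cm_mul h.xA h.xA]

theorem x_notMem (h : Grp S A x e y) [Finite S] : x ∉ NS S := by
  rintro ⟨s, hs, z, hz, hx⟩
  have hsA := h.E_le_A hs
  have hzA := h.Z_le_A hz
  have h1 : cm y x = s⁻¹ * s⁻¹ := by
    rw [hx, h.cm_mul hsA hzA, (h.cm_eq_one_iff hzA).2 hz, mul_one, h.cm_E hs]
  have hs' := hs
  rw [h.E_eq] at hs'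
  obtain ⟨k, hk⟩ := Subgroup.mem_zpowers_iff.1 hs'
  have h2 : cm y x ^ (1 + 2 * k) = 1 := by
    rw [zpow_add, zpow_one, two_mul, zpow_add, hk, h1]
    group
  have h3 : (orderOf (cm y x) : ℤ) ∣ 1 + 2 * k := orderOf_dvd_iff_zpow_eq_one.2 h2
  have hfinA := h.finA
  obtain ⟨j, hj⟩ := IsPGroup.iff_orderOf.1 (h.pgrp.to_le h.le : IsPGroup 2 A)
    ⟨cm y x, h.cm_mem_A h.xA⟩
  rw [Subgroup.orderOf_mk] at hj
  rw [hj] at h3
  have hj0 : j ≠ 0 := by
    rintro rfl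
    rw [pow_zero, orderOf_eq_one_iff] at hj
    exact h.cm_ne hj
  have h4 : (2 : ℤ) ∣ ((2 ^ j : ℕ) : ℤ) := by
    push_cast
    exact dvd_pow_self 2 hj0
  have h5 := h4.trans h3
  omega

/-- The two cosets of `NS S` in `A`. -/
theorem mem_NS_or (h : Grp S A x e y) {a : Ω} (ha : a ∈ A) : a ∈ NS S ∨ x⁻¹ * a ∈ NS S := by
  have heN : e ∈ NS S := Z_le_NS h.eZ
  have hev : ∀ k : ℕ, x ^ (2 * k) ∈ NS S := by
    intro k
    rw [pow_mul, pow_two]
    exact (NS S).pow_mem h.x_mul_x_mem k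
  obtain ⟨i, hi⟩ := h.gen a ha
  rcases Nat.even_or_odd' i with ⟨k, rfl | rfl⟩
  · left
    rcases hi with rfl | rfl
    · exact hev k
    · exact (NS S).mul_mem (hev k) heN
  · right
    rcases hi with rfl | rfl
    · rw [pow_succ', inv_mul_cancel_left]
      exact hev k
    · rw [pow_succ', mul_assoc, inv_mul_cancel_left]
      exact (NS S).mul_mem (hev k) heN

theorem mul_mem_NS (h : Grp S A x e y) {a b : Ω} (ha : a ∈ A) (hb : b ∈ A) (haN : a ∉ NS S)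
    (hbN : b ∉ NS S) : a⁻¹ * b ∈ NS S := by
  have h1 := (h.mem_NS_or ha).resolve_left haN
  have h2 := (h.mem_NS_or hb).resolve_left hbN
  have h3 := (NS S).mul_mem ((NS S).inv_mem h1) h2
  have h4 : (x⁻¹ * a)⁻¹ * (x⁻¹ * b) = a⁻¹ * b := by group
  rwa [h4] at h3

/-- For elements outside `NS S` the commutator generates `[S, S]`. -/
theorem zpowers_cm (h : Grp S A x e y) [Finite S] {a : Ω} (ha : a ∈ A) (haN : a ∉ NS S) :
    orderOf (cm y a) = Nat.card (Cfsg.Agent.H617.FusFour.E S) := by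
  rw [h.E_eq, Nat.card_zpowers]
  obtain ⟨i, hi⟩ := h.exists_cm_pow ha
  have hfinA := h.finA
  obtain ⟨j, hj⟩ := IsPGroup.iff_orderOf.1 (h.pgrp.to_le h.le : IsPGroup 2 A)
    ⟨cm y x, h.cm_mem_A h.xA⟩
  rw [Subgroup.orderOf_mk] at hj
  have hodd : ¬ 2 ∣ i := by
    rintro ⟨k, rfl⟩
    apply haN
    refine h.mem_NS_of_cm (s := cm y x ^ k) ha (Subgroup.pow_mem _ (h.cm_mem h.xA) k) ?_
    rw [hi, two_mul, pow_add]
  rw [hi, Nat.Coprime.orderOf_pow]
  rw [hj]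
  exact Nat.Coprime.pow_left j ((Nat.Prime.coprime_iff_not_dvd Nat.prime_two).2 hodd)

end Grp

theorem Kl.eq_one_or {F : FusionSystem S} {d : Ω} {E K : Subgroup Ω} (hK : Kl F d E K)
    (hd1 : d ≠ 1) (hdd : d * d = 1) (hdZ : d ∈ Z S) {v : Ω} (hv : v ∈ K) (hvZ : v ∈ Z S) :
    v = 1 ∨ v = d := by
  classical
  by_contra hcon
  push Not at hcon
  obtain ⟨hv1, hvd⟩ := hcon
  obtain ⟨k, hk, hkZ⟩ := hK.out
  have hkd : k * d ∉ Z S := by
    intro h1
    apply hkZ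
    have h2 := (Z S).mul_mem h1 hdZ
    rwa [mul_assoc, hdd, mul_one] at h2
  have h1Z := (Z S).one_mem
  have hcard : ({1, d, v, k, k * d} : Finset Ω).card = 5 := by
    rw [Finset.card_insert_of_notMem, Finset.card_insert_of_notMem,
      Finset.card_insert_of_notMem, Finset.card_insert_of_notMem, Finset.card_singleton]
    · simp only [Finset.mem_singleton]
      intro h1
      exact hd1 (mul_eq_left.1 h1.symm)
    · simp only [Finset.mem_insert, Finset.mem_singleton, not_or]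
      exact ⟨fun h1 => hkZ (h1 ▸ hvZ), fun h1 => hkd (h1 ▸ hvZ)⟩
    · simp only [Finset.mem_insert, Finset.mem_singleton, not_or]
      exact ⟨fun h1 => hvd h1.symm, fun h1 => hkZ (h1 ▸ hdZ), fun h1 => hkd (h1 ▸ hdZ)⟩
    · simp only [Finset.mem_insert, Finset.mem_singleton, not_or]
      exact ⟨fun h1 => hd1 h1.symm, fun h1 => hv1 h1.symm, fun h1 => hkZ (h1 ▸ h1Z),
        fun h1 => hkd (h1 ▸ h1Z)⟩
  have hfin : Finite K := Nat.finite_of_card_ne_zero (by rw [hK.card]; norm_num)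
  have hsub : ((({1, d, v, k, k * d} : Finset Ω) : Finset Ω) : Set Ω) ⊆ (K : Set Ω) := by
    intro w hw
    simp only [Finset.coe_insert, Finset.coe_singleton, Set.mem_insert_iff,
      Set.mem_singleton_iff] at hw
    rcases hw with rfl | rfl | rfl | rfl | rfl
    · exact K.one_mem
    · exact hK.dK
    · exact hv
    · exact hk
    · exact K.mul_mem hk hK.dK
  have h5 := Set.ncard_le_ncard hsub (Set.toFinite _)
  rw [Set.ncard_coe_finset, hcard] at h5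
  have h6 : (K : Set Ω).ncard = 4 := hK.card
  omega

namespace Grp

/-- The involutions of the four-groups in the same coset are congruent modulo `[S, S]`. -/
theorem inv_mul_mem_E (h : Grp S A x e y) [Finite S] {F : FusionSystem S}
    (hNQ : NQF x F) {d : Ω} (hdE : d ∈ Cfsg.Agent.H617.FusFour.E S) (hd1 : d ≠ 1)
    (hdd : d * d = 1) (hdZ : d ∈ Z S)
    {E E' K K' : Subgroup Ω} (hE : Ess F E) (hE' : Ess F E') (hK : Kl F d E K)
    (hK' : Kl F d E' K') {k k' : Ω} (hk : k ∈ K) (hk' : k' ∈ K') (hkZ : k ∉ Z S)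
    (hkZ' : k' ∉ Z S) (hN : k⁻¹ * k' ∈ NS S) :
    k⁻¹ * k' ∈ Cfsg.Agent.H617.FusFour.E S := by
  obtain ⟨-, hEZ⟩ := h.ess_inf' hNQ hE
  obtain ⟨-, hEZ'⟩ := h.ess_inf' hNQ hE'
  have hES := hE.1.1
  have hES' := hE'.1.1
  have hZE : Z S ≤ E := Z_le_of_isCentric hE.2.1
  have hZE' : Z S ≤ E' := Z_le_of_isCentric hE'.2.1
  have hkE := hK.le hk
  have hkE' := hK'.le hk'
  have hkA : k ∉ A := fun h1 => hkZ (hEZ k hkE h1)
  have hkA' : k' ∉ A := fun h1 => hkZ' (hEZ' k' hkE' h1)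
  obtain ⟨s, hs, z, hz, hsz⟩ := hN
  obtain ⟨a, ha, hsa⟩ := h.exists_cm hs
  have hk'eq : k' = k * s * z := by
    calc k' = k * (k⁻¹ * k') := by group
      _ = k * s * z := by rw [hsz]; group
  have hconjk : a * k * a⁻¹ = k * s := by rw [h.conj_out ha (hES hkE) hkA, ← hsa]
  have hksE' : k * s ∈ E' := by
    have h1 : k * s = k' * z⁻¹ := by rw [hk'eq]; group
    rw [h1]
    exact E'.mul_mem hkE' (E'.inv_mem (hZE' hz))
  -- conjugation by `a`
  have hφ : conjHom E a ∈ F.Hom E := F.conj_mem hES (h.le ha)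
  have hφa : ∀ v : E, conjHom E a v = a * v * a⁻¹ := fun v => rfl
  have hrange : (conjHom E a).range = E' := by
    apply le_antisymm
    · rintro _ ⟨v, rfl⟩
      rw [hφa]
      by_cases hvA : (v : Ω) ∈ A
      · rw [(h.conj_cases hES ha v.2).1 hvA]
        exact hZE' (hEZ v v.2 hvA)
      · have h1 := h.inv_mul_mem_Z hES hEZ hkE v.2 hkA hvA
        have h2 : a * (v : Ω) * a⁻¹ = (a * k * a⁻¹) * (a * (k⁻¹ * v) * a⁻¹) := by group
        have h3 : a * (k⁻¹ * (v : Ω)) * a⁻¹ = k⁻¹ * v := by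
          rw [(mem_Z.1 h1).2 a (h.le ha)]; group
        rw [h2, hconjk, h3]
        exact E'.mul_mem hksE' (hZE' h1)
    · intro v hv
      by_cases hvA : v ∈ A
      · have h1 := hEZ' v hv hvA
        refine ⟨⟨v, hZE h1⟩, ?_⟩
        rw [hφa]
        exact (h.conj_cases hES ha (hZE h1)).1 hvA
      · have h1 := h.inv_mul_mem_Z hES' hEZ' hkE' hv hkA' hvA
        have hζ : z * (k'⁻¹ * v) ∈ Z S := (Z S).mul_mem hz h1
        refine ⟨⟨k * (z * (k'⁻¹ * v)), E.mul_mem hkE (hZE hζ)⟩, ?_⟩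
        rw [hφa]
        change a * (k * (z * (k'⁻¹ * v))) * a⁻¹ = v
        have h3 : a * (z * (k'⁻¹ * v)) * a⁻¹ = z * (k'⁻¹ * v) := by
          rw [(mem_Z.1 hζ).2 a (h.le ha)]; group
        calc a * (k * (z * (k'⁻¹ * v))) * a⁻¹ = (a * k * a⁻¹) * (a * (z * (k'⁻¹ * v)) * a⁻¹) := by
              group
          _ = k * s * (z * (k'⁻¹ * v)) := by rw [hconjk, h3]
          _ = k' * (k'⁻¹ * v) := by rw [← mul_assoc (k * s), ← hk'eq]
          _ = v := by group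
  -- transport of an automorphism
  obtain ⟨α, hα, hodd, hα1⟩ := hE.2.2
  have hα' := congr_mem_autGroup hφ hrange hα
  set ι := isoOf (conjHom E a) (F.injective_of_mem hφ) hrange with hι
  have hodd' : ¬ 2 ∣ orderOf (MulAut.congr ι α) := by
    rwa [MulEquiv.orderOf_eq]
  obtain ⟨v, hv⟩ := hK.surj α hα hodd hα1 k hk
  have h1 := hK'.mem _ hα' hodd' (ι v)
  have h2 : (MulAut.congr ι α) (ι v) = ι (α v) := by
    change ι (α (ι.symm (ι v))) = _
    rw [MulEquiv.symm_apply_apply]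
  rw [h2] at h1
  have h3 : ((ι v : E') : Ω)⁻¹ * (ι (α v) : E') = k * s := by
    have h4 : ((ι v : E') : Ω) = a * v * a⁻¹ := rfl
    have h5 : ((ι (α v) : E') : Ω) = a * (α v : E) * a⁻¹ := rfl
    rw [h4, h5, ← hconjk, ← hv]
    group
  rw [h3] at h1
  have h4 : z ∈ K' := by
    have h5 := K'.mul_mem (K'.inv_mem h1) hk'
    have h6 : (k * s)⁻¹ * k' = z := by rw [hk'eq]; group
    rwa [h6] at h5
  rw [hsz]
  rcases hK'.eq_one_or hd1 hdd hdZ h4 hz with h5 | h5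
  · rw [h5, mul_one]; exact hs
  · rw [h5]; exact Subgroup.mul_mem _ hs hdE

end Grp

end Cfsg.Agent.H645.FT
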