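import Mathlib
import Cfsg.Agent.H645.FT.Typ
import Cfsg.Agent.H934.FTC1
import Cfsg.Agent.H934.FTD1

/-!
# A subgroup containing the focal subgroup

`FD S A y F d Δ`: what is used about the fusion system `F` in the block theoretic part; `Δ`
contains the focal subgroup and meets `Z(S)` in `⟨d⟩`.
-/

set_option autoImplicit false

namespace Cfsg.Agent.H645.FT

open Cfsg Cfsg.FusionSystem Cfsg.Agent.H802 Cfsg.Agent.H617.FusInv Cfsg.Agent.H617.FusTwo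
open Cfsg.Agent.H617.FusFour Cfsg.Agent.H617.FusMain

variable {Ω : Type*} [Group Ω] {S A : Subgroup Ω} {x e y : Ω}

/-- The facts on the fusion system. -/
structure FD (S A : Subgroup Ω) (y : Ω) (F : FusionSystem S) (d : Ω) (Δ : Subgroup S) :
    Prop where
  dE : d ∈ Cfsg.Agent.H617.FusFour.E S
  d1 : d ≠ 1
  dd : d * d = 1
  dZ : d ∈ Z S
  comm : ∀ a b : S, a * b * a⁻¹ * b⁻¹ ∈ Δ
  dΔ : ∀ v : S, (v : Ω) = d → v ∈ Δ
  cen : ∀ z : S, (z : Ω) ∈ Z S → z ∈ Δ → z = 1 ∨ (z : Ω) = d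
  foc : ∀ u v : S, F.IsConjElt (u : Ω) (v : Ω) → u⁻¹ * v ∈ Δ
  cls : ∀ w ∈ A, w ∉ Z S → ∀ v, F.IsConjElt w v → v = w ∨ v = y * w * y⁻¹
  nild : NilAt F d
  nilw : ∀ w ∈ A, w ∉ Z S → NilAt F w
  alt : (∃ u ∈ S, u ≠ 1 ∧ NilAt F u ∧ ∀ v, F.IsConjElt u v → Nat.card (C S v) = 2 * Nat.card (Z S)) ∨
    (∃ u ∈ A, u ∉ Z S ∧ orderOf u = 2 * Nat.card (Cfsg.Agent.H617.FusFour.E S) ∧
      4 ≤ Nat.card (Cfsg.Agent.H617.FusFour.E S) ∧ ∃ s ∈ S, s * u * s⁻¹ = u⁻¹)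

/-- The involutions outside `Z(S)` of the four-groups. -/
def KI (F : FusionSystem S) (d v : Ω) : Prop :=
  ∃ E K : Subgroup Ω, Ess F E ∧ Kl F d E K ∧ v ∈ K ∧ v ∉ Z S

theorem isConjElt_mem {F : FusionSystem S} {u v : Ω} (h : F.IsConjElt u v) : u ∈ S ∧ v ∈ S := by
  obtain ⟨φ, hφ, rfl⟩ := h
  exact ⟨(F.le_of_mem hφ).1 (Subgroup.mem_zpowers u), (F.le_of_mem hφ).2 _⟩

theorem eq_one_of_isConjElt {F : FusionSystem S} {u : Ω} (h : F.IsConjElt u 1) : u = 1 := by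
  obtain ⟨φ, hφ, h1⟩ := h
  have h2 := F.injective_of_mem hφ (h1.trans (map_one φ).symm)
  exact congrArg Subtype.val h2

theorem isConjElt_self {F : FusionSystem S} {u : Ω} (hu : u ∈ S) : F.IsConjElt u u := by
  refine ⟨(Subgroup.zpowers u).subtype, subtype_mem F (Subgroup.zpowers_le.2 hu), rfl⟩

namespace Grp

theorem ki_notMem (h : Grp S A x e y) [Finite S] {F : FusionSystem S} (hNQ : NQF x F) {d v : Ω}
    (hv : KI F d v) : v ∉ A := by
  obtain ⟨E, K, hE, hK, hvK, hvZ⟩ := hv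
  exact fun h1 => hvZ ((h.ess_inf' hNQ hE).2 v (hK.le hvK) h1)

theorem ki_mem {F : FusionSystem S} {d v : Ω} (hv : KI F d v) : v ∈ S := by
  obtain ⟨E, K, hE, hK, hvK, hvZ⟩ := hv
  exact hE.1.1 (hK.le hvK)

theorem ki_sq {F : FusionSystem S} {d v : Ω} (hv : KI F d v) : v * v = 1 := by
  obtain ⟨E, K, hE, hK, hvK, hvZ⟩ := hv
  exact hK.sq v hvK

theorem ki_congr (h : Grp S A x e y) [Finite S] {F : FusionSystem S}
    (hNQ : NQF x F) {d : Ω} (hdE : d ∈ Cfsg.Agent.H617.FusFour.E S) (hd1 : d ≠ 1)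
    (hdd : d * d = 1) (hdZ : d ∈ Z S) {k k' : Ω} (hk : KI F d k) (hk' : KI F d k')
    (hN : k⁻¹ * k' ∈ NS S) : k⁻¹ * k' ∈ Cfsg.Agent.H617.FusFour.E S := by
  obtain ⟨E, K, hE, hK, hkK, hkZ⟩ := hk
  obtain ⟨E', K', hE', hK', hkK', hkZ'⟩ := hk'
  exact h.inv_mul_mem_E hNQ hdE hd1 hdd hdZ hE hE' hK hK' hkK hkK' hkZ hkZ' hN

/-- Three elements outside `A`: two of them are congruent modulo `NS S`. -/
theorem congr_of_three (h : Grp S A x e y) {u v w : Ω} (hu : u ∈ S) (hv : v ∈ S) (hw : w ∈ S)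
    (huA : u ∉ A) (hvA : v ∉ A) (hwA : w ∉ A) (huv : u⁻¹ * v ∉ NS S) :
    u⁻¹ * w ∈ NS S ∨ v⁻¹ * w ∈ NS S := by
  by_cases h1 : u⁻¹ * w ∈ NS S
  · exact Or.inl h1
  right
  have h2 := h.mul_mem_NS (inv_mul_mem_of_relIndex_two h.idx hu hv huA hvA)
    (inv_mul_mem_of_relIndex_two h.idx hu hw huA hwA) huv h1
  have h3 : (u⁻¹ * v)⁻¹ * (u⁻¹ * w) = v⁻¹ * w := by group
  rwa [h3] at h2

/-- Generators of the subgroup. -/
theorem exists_gens (h : Grp S A x e y) [Finite S] {F : FusionSystem S}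
    (hNQ : NQF x F) {d : Ω} (hdE : d ∈ Cfsg.Agent.H617.FusFour.E S) (hd1 : d ≠ 1)
    (hdd : d * d = 1) (hdZ : d ∈ Z S) :
    ∃ i j : Ω, (i = 1 ∨ KI F d i) ∧ (j = 1 ∨ KI F d j) ∧ (KI F d i → KI F d j → i⁻¹ * j ∉ NS S) ∧
      ∀ k, KI F d k → i⁻¹ * k ∈ Cfsg.Agent.H617.FusFour.E S ∨
        j⁻¹ * k ∈ Cfsg.Agent.H617.FusFour.E S := by
  have h1no : ¬ KI F d 1 := fun h1 => h.ki_notMem hNQ h1 A.one_mem
  by_cases h1 : ∃ i, KI F d i
  · obtain ⟨i, hi⟩ := h1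
    by_cases h2 : ∃ j, KI F d j ∧ i⁻¹ * j ∉ NS S
    · obtain ⟨j, hj, hij⟩ := h2
      refine ⟨i, j, Or.inr hi, Or.inr hj, fun _ _ => hij, fun k hk => ?_⟩
      rcases h.congr_of_three (ki_mem hi) (ki_mem hj) (ki_mem hk) (h.ki_notMem hNQ hi)
        (h.ki_notMem hNQ hj) (h.ki_notMem hNQ hk) hij with h3 | h3
      · exact Or.inl (h.ki_congr hNQ hdE hd1 hdd hdZ hi hk h3)
      · exact Or.inr (h.ki_congr hNQ hdE hd1 hdd hdZ hj hk h3)
    · push Not at h2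
      refine ⟨i, 1, Or.inr hi, Or.inl rfl, fun _ h3 => absurd h3 h1no, fun k hk => Or.inl ?_⟩
      exact h.ki_congr hNQ hdE hd1 hdd hdZ hi hk (h2 k hk)
  · push Not at h1
    exact ⟨1, 1, Or.inl rfl, Or.inl rfl, fun h3 => absurd h3 h1no, fun k hk => absurd hk (h1 k)⟩

theorem mem_commutator_iff {v : S} : v ∈ commutator S ↔ (v : Ω) ∈ Cfsg.Agent.H617.FusFour.E S := by
  have h1 : (commutator S).map S.subtype = ⁅S, S⁆ := Subgroup.map_subtype_commutator S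
  constructor
  · intro hv
    change (v : Ω) ∈ ⁅S, S⁆
    rw [← h1]
    exact ⟨v, hv, rfl⟩
  · intro hv
    have hv' : (v : Ω) ∈ ⁅S, S⁆ := hv
    rw [← h1] at hv'
    obtain ⟨w, hw, hwv⟩ := hv'
    have h2 : w = v := Subtype.ext hwv
    rwa [← h2]

theorem of_eq_iff {a b : S} : Abelianization.of a = Abelianization.of b ↔
    (a : Ω)⁻¹ * b ∈ Cfsg.Agent.H617.FusFour.E S := by
  have h1 : (Abelianization.of a = Abelianization.of b) ↔ a⁻¹ * b ∈ commutator S := QuotientGroup.eq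
  rw [h1, mem_commutator_iff]
  rfl

theorem zpow_cases {V : Type*} [Group V] {v : V} (h : v * v = 1) (m : ℤ) : v ^ m = 1 ∨ v ^ m = v := by
  rcases Int.even_or_odd' m with ⟨k, rfl | rfl⟩
  · left
    rw [zpow_mul, zpow_two, h, one_zpow]
  · right
    rw [zpow_add, zpow_mul, zpow_two, h, one_zpow, one_mul, zpow_one]

/-- The class of a noncentral element of `A`. -/
theorem isConjElt_A (h : Grp S A x e y) [Finite S] {F : FusionSystem S} (hF : F.IsSaturated 2)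
    (hNQ : NQF x F) {w v : Ω} (hw : w ∈ A) (hwZ : w ∉ Z S) (hwv : F.IsConjElt w v) :
    v = w ∨ v = y * w * y⁻¹ := by
  have hyw := h.conj_mem h.yS hw
  have hyZ : y * w * y⁻¹ ∉ Z S := by
    intro h1
    apply hwZ
    have h2 := (mem_Z.1 h1).2 y h.yS
    have h3 : w = y * w * y⁻¹ := by
      calc w = y⁻¹ * (y * w * y⁻¹ * y) := by group
        _ = y⁻¹ * (y * (y * w * y⁻¹)) := by rw [h2]
        _ = y * w * y⁻¹ := by group
    rwa [← h3] at h1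
  have hyy : y * y ∈ A := by rw [h.mul_mem_iff h.yS h.yS]
  have h1 := Cfsg.Agent.H934.FTD1.mem_iff h.pgrp hF {v | v = w ∨ v = y * w * y⁻¹} ?_ ?_ hwv
  · exact h1.1 (Or.inl rfl)
  · rintro s hs t - ht
    have htA : t ∈ A := by
      rcases ht with rfl | rfl
      · exact hw
      · exact hyw
    by_cases hsA : s ∈ A
    · have h2 : s * t * s⁻¹ = t := by rw [h.comm s hsA t htA]; group
      change s * t * s⁻¹ = w ∨ s * t * s⁻¹ = y * w * y⁻¹
      rw [h2]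
      exact ht
    · change s * t * s⁻¹ = w ∨ s * t * s⁻¹ = y * w * y⁻¹
      rw [h.conj_eq hs hsA htA]
      rcases ht with rfl | rfl
      · exact Or.inr rfl
      · left
        have h3 := h.comm _ hyy w hw
        calc y * (y * w * y⁻¹) * y⁻¹ = (y * y * w) * (y * y)⁻¹ := by group
          _ = w * (y * y) * (y * y)⁻¹ := by rw [h3]
          _ = w := by group
  · intro E hn hc α hα hodd t ht
    by_cases hα1 : α = 1
    · rw [hα1]; exact ht
    exfalso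
    have hE : Ess F E := ⟨hn, hc, α, hα, hodd, hα1⟩
    obtain ⟨-, hEZ⟩ := h.ess_inf' hNQ hE
    rcases ht with h2 | h2
    · exact hwZ (by rw [← h2]; exact hEZ t t.2 (by rw [h2]; exact hw))
    · exact hyZ (by rw [← h2]; exact hEZ t t.2 (by rw [h2]; exact hyw))

theorem conj_notMem_Z (h : Grp S A x e y) {w : Ω} (hwZ : w ∉ Z S) : y * w * y⁻¹ ∉ Z S := by
  intro h1
  apply hwZ
  have h2 := (mem_Z.1 h1).2 y h.yS
  have h3 : w = y * w * y⁻¹ := by
    calc w = y⁻¹ * (y * w * y⁻¹ * y) := by group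
      _ = y⁻¹ * (y * (y * w * y⁻¹)) := by rw [h2]
      _ = y * w * y⁻¹ := by group
  rwa [← h3] at h1

theorem nilAt_A (h : Grp S A x e y) [Finite S] {F : FusionSystem S} (hF : F.IsSaturated 2)
    (hNQ : NQF x F) {w : Ω} (hw : w ∈ A) (hwZ : w ∉ Z S) : NilAt F w := by
  intro E hE t ht α hα hodd hfix
  by_contra hα1
  obtain ⟨E', t', α', hn', hc', ht', hα', hodd', hfix', hα1'⟩ :=
    Cfsg.Agent.H934.FTC1.exists_centric h.pgrp hF hE ht hα hodd hfix hα1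
  have hE' : Ess F E' := ⟨hn', hc', α', hα', hodd', hα1'⟩
  obtain ⟨-, hEZ⟩ := h.ess_inf' hNQ hE'
  rcases h.isConjElt_A hF hNQ hw hwZ ht' with h2 | h2
  · exact hwZ (by rw [← h2]; exact hEZ t' t'.2 (by rw [h2]; exact hw))
  · exact h.conj_notMem_Z hwZ (by rw [← h2]; exact hEZ t' t'.2 (by rw [h2]; exact h.conj_mem h.yS hw))

/-- A coset of `NS S` meeting no essential subgroup. -/
theorem alt_of_type (h : Grp S A x e y) [Finite S] {F : FusionSystem S} (hF : F.IsSaturated 2)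
    {u : Ω} (hu : u ∈ S) (huA : u ∉ A)
    (hno : ∀ E, Ess F E → ∀ v ∈ E, u⁻¹ * v ∉ NS S) :
    u ≠ 1 ∧ NilAt F u ∧ ∀ v, F.IsConjElt u v → Nat.card (C S v) = 2 * Nat.card (Z S) := by
  have hcls : ∀ v, F.IsConjElt u v → u⁻¹ * v ∈ NS S := by
    intro v hv
    have h1 := Cfsg.Agent.H934.FTD1.mem_iff h.pgrp hF {v | u⁻¹ * v ∈ NS S} ?_ ?_ hv
    · refine h1.1 ?_
      change u⁻¹ * u ∈ NS S
      rw [inv_mul_cancel]
      exact (NS S).one_mem
    · intro s hs t htS ht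
      change u⁻¹ * (s * t * s⁻¹) ∈ NS S
      have h2 : u⁻¹ * (s * t * s⁻¹) = (u⁻¹ * t) * (t⁻¹ * (s * t * s⁻¹)) := by group
      rw [h2]
      exact (NS S).mul_mem ht (E_le_NS (inv_mul_conj_mem_E hs htS))
    · intro E hn hc α hα hodd t ht
      by_cases hα1 : α = 1
      · rw [hα1]; exact ht
      · exact absurd ht (hno E ⟨hn, hc, α, hα, hodd, hα1⟩ t t.2)
  refine ⟨fun h1 => huA (h1 ▸ A.one_mem), ?_, ?_⟩
  · intro E hE t ht α hα hodd hfix
    by_contra hα1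
    obtain ⟨E', t', α', hn', hc', ht', hα', hodd', hfix', hα1'⟩ :=
      Cfsg.Agent.H934.FTC1.exists_centric h.pgrp hF hE ht hα hodd hfix hα1
    exact hno E' ⟨hn', hc', α', hα', hodd', hα1'⟩ t' t'.2 (hcls _ ht')
  · intro v hv
    have hvS := (isConjElt_mem hv).2
    have hvA : v ∉ A := by
      intro h1
      apply huA
      have h2 := h.NS_le_A (hcls v hv)
      rw [h.mul_mem_iff (S.inv_mem hu) hvS] at h2
      have h3 := A.inv_mem (h2.2 h1)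
      rwa [inv_inv] at h3
    have h2 := card_C_out h.le h.idx h.comm h.ne hvS hvA
    rw [card_eq_mul_relIndex (Z_le_C hvS), h2, mul_comm]

end Grp

end Cfsg.Agent.H645.FT
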