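import Mathlib
import Cfsg.Agent.H645.FT.Delta

/-!
# Existence of the subgroup `Δ`
-/

set_option autoImplicit false

namespace Cfsg.Agent.H645.FT

open Cfsg Cfsg.FusionSystem Cfsg.Agent.H802 Cfsg.Agent.H617.FusInv Cfsg.Agent.H617.FusTwo
open Cfsg.Agent.H617.FusFour Cfsg.Agent.H617.FusMain

variable {Ω : Type*} [Group Ω] {S A : Subgroup Ω} {x e y : Ω}

namespace Grp

/-- The alternatives for the bound on the characters of height zero. -/
theorem exists_alt (h : Grp S A x e y) [Finite S] {F : FusionSystem S} (hF : F.IsSaturated 2)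
    (hNQ : NQF x F) {d : Ω} (hdE : d ∈ Cfsg.Agent.H617.FusFour.E S) (hd1 : d ≠ 1)
    (hdd : d * d = 1) (hdZ : d ∈ Z S)
    (hdu : ∀ s ∈ Cfsg.Agent.H617.FusFour.E S, s ∈ Z S → s = 1 ∨ s = d) :
    (∃ u ∈ S, u ≠ 1 ∧ NilAt F u ∧ ∀ v, F.IsConjElt u v → Nat.card (C S v) = 2 * Nat.card (Z S)) ∨
    (∃ u ∈ A, u ∉ Z S ∧ orderOf u = 2 * Nat.card (Cfsg.Agent.H617.FusFour.E S) ∧
      4 ≤ Nat.card (Cfsg.Agent.H617.FusFour.E S) ∧ ∃ s ∈ S, s * u * s⁻¹ = u⁻¹) := by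
  by_cases hall : ∀ u ∈ S, u ∉ A → ∃ E, Ess F E ∧ ∃ v ∈ E, u⁻¹ * v ∈ NS S
  swap
  · push Not at hall
    obtain ⟨u, hu, huA, hno⟩ := hall
    exact Or.inl ⟨u, hu, h.alt_of_type hF hu huA hno⟩
  -- an involution in each coset
  have key : ∀ u ∈ S, u ∉ A → ∃ k, KI F d k ∧ u⁻¹ * k ∈ NS S := by
    intro u hu huA
    obtain ⟨E, hE, v, hv, huv⟩ := hall u hu huA
    obtain ⟨K, hK⟩ := h.exists_kl hF hNQ hdE hd1 hdd hdZ hdu hE
    obtain ⟨k, hk, hkZ⟩ := hK.out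
    have hki : KI F d k := ⟨E, K, hE, hK, hk, hkZ⟩
    have hkA := h.ki_notMem hNQ hki
    have hvA : v ∉ A := by
      intro h1
      apply huA
      have h2 := h.NS_le_A huv
      rw [h.mul_mem_iff (S.inv_mem hu) (hE.1.1 hv)] at h2
      have h3 := A.inv_mem (h2.2 h1)
      rwa [inv_inv] at h3
    have h1 := h.inv_mul_mem_Z hE.1.1 (h.ess_inf' hNQ hE).2 hv (hK.le hk) hvA hkA
    refine ⟨k, hki, ?_⟩
    have h2 := (NS S).mul_mem huv (Z_le_NS h1)
    have h3 : u⁻¹ * v * (v⁻¹ * k) = u⁻¹ * k := by group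
    rwa [h3] at h2
  obtain ⟨k, hk, hyk⟩ := key y h.yS h.yA
  have hyxA : y * x ∉ A := by
    rw [h.mul_mem_iff h.yS (h.le h.xA)]
    exact fun h1 => h.yA (h1.2 h.xA)
  obtain ⟨k', hk', hyk'⟩ := key (y * x) (S.mul_mem h.yS (h.le h.xA)) hyxA
  have hkS := ki_mem hk
  have hkS' := ki_mem hk'
  have hkA := h.ki_notMem hNQ hk
  have hkA' := h.ki_notMem hNQ hk'
  have hkk := ki_sq hk
  have hkk' := ki_sq hk'
  have hki : k⁻¹ = k := inv_eq_of_mul_eq_one_left hkk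
  have hki' : k'⁻¹ = k' := inv_eq_of_mul_eq_one_left hkk'
  -- `u = k k'`
  have huA : k * k' ∈ A := by
    have h1 := inv_mul_mem_of_relIndex_two h.idx hkS hkS' hkA hkA'
    rwa [hki] at h1
  have huN : k * k' ∉ NS S := by
    intro h1
    apply h.x_notMem
    have h2 : x = (y⁻¹ * k) * (k⁻¹ * k') * ((y * x)⁻¹ * k')⁻¹ := by group
    rw [h2, hki]
    exact (NS S).mul_mem ((NS S).mul_mem hyk h1) ((NS S).inv_mem hyk')
  have huZ : k * k' ∉ Z S := fun h1 => huN (Z_le_NS h1)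
  have huu : k * (k * k') * k⁻¹ = (k * k')⁻¹ := by
    rw [mul_inv_rev, hki, hki', ← mul_assoc, hkk, one_mul]
  have hcm : cm y (k * k') = (k * k')⁻¹ * (k * k')⁻¹ := by
    unfold cm
    rw [← h.conj_eq hkS hkA huA, huu]
  have hord := h.zpowers_cm huA huN
  have hord2 : orderOf ((k * k') * (k * k')) = Nat.card (Cfsg.Agent.H617.FusFour.E S) := by
    rw [← hord, hcm, ← mul_inv_rev, orderOf_inv]
  by_cases h4 : 4 ≤ Nat.card (Cfsg.Agent.H617.FusFour.E S)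
  · refine Or.inr ⟨k * k', huA, huZ, ?_, h4, k, hkS, huu⟩
    have hfinA := h.finA
    obtain ⟨m, hm⟩ := IsPGroup.iff_orderOf.1 (h.pgrp.to_le h.le : IsPGroup 2 A) ⟨k * k', huA⟩
    rw [Subgroup.orderOf_mk] at hm
    have hm0 : m ≠ 0 := by
      rintro rfl
      rw [pow_zero, orderOf_eq_one_iff] at hm
      rw [hm, mul_one, orderOf_one] at hord2
      omega
    obtain ⟨m, rfl⟩ := Nat.exists_eq_succ_of_ne_zero hm0
    rw [← pow_two, orderOf_pow' _ (by norm_num), hm, pow_succ, Nat.gcd_mul_left_left,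
      Nat.mul_div_cancel _ (by norm_num)] at hord2
    rw [hm, pow_succ, hord2, mul_comm]
  · left
    have hE1 : Nat.card (Cfsg.Agent.H617.FusFour.E S) ≠ 1 := by
      rw [h.E_eq, Nat.card_zpowers]
      intro h1
      exact h.cm_ne (orderOf_eq_one_iff.1 h1)
    have hE3 : Nat.card (Cfsg.Agent.H617.FusFour.E S) ≠ 3 := by
      have hfinA := h.finA
      obtain ⟨m, hm⟩ := IsPGroup.iff_orderOf.1 (h.pgrp.to_le h.le : IsPGroup 2 A)
        ⟨cm y x, h.cm_mem_A h.xA⟩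
      rw [Subgroup.orderOf_mk] at hm
      rw [h.E_eq, Nat.card_zpowers, hm]
      intro h1
      rcases Nat.eq_zero_or_pos m with rfl | hm0
      · norm_num at h1
      · have h2 : 2 ∣ 2 ^ m := dvd_pow_self 2 hm0.ne'
        omega
    have hfinE : Finite (Cfsg.Agent.H617.FusFour.E S) := finite_of_le E_le
    have hE0 : 0 < Nat.card (Cfsg.Agent.H617.FusFour.E S) := Nat.card_pos
    have hE2 : Nat.card (Cfsg.Agent.H617.FusFour.E S) = 2 := by omega
    refine ⟨k * k', h.le huA, fun h1 => huZ (by rw [h1]; exact (Z S).one_mem),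
      h.nilAt_A hF hNQ huA huZ, fun v hv => ?_⟩
    have hvA : v ∈ A ∧ v ∉ Z S := by
      rcases h.isConjElt_A hF hNQ huA huZ hv with rfl | rfl
      · exact ⟨huA, huZ⟩
      · exact ⟨h.conj_mem h.yS huA, h.conj_notMem_Z huZ⟩
    rw [card_C_in h.le h.idx h.comm hvA.1 hvA.2, h.card_A, hE2, mul_comm]

theorem exists_fd (h : Grp S A x e y) [Finite S] {F : FusionSystem S} (hF : F.IsSaturated 2)
    (hNQ : NQF x F) : ∃ d Δ, FD S A y F d Δ := by
  obtain ⟨d, hdE, hd1, hdd, hdZ, hdu⟩ := h.exists_d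
  obtain ⟨i, j, hi, hj, hij, hk⟩ := h.exists_gens hNQ hdE hd1 hdd hdZ
  have hiS : i ∈ S := by
    rcases hi with rfl | hi
    · exact S.one_mem
    · exact ki_mem hi
  have hjS : j ∈ S := by
    rcases hj with rfl | hj
    · exact S.one_mem
    · exact ki_mem hj
  have hii : i * i = 1 := by
    rcases hi with rfl | hi
    · exact mul_one 1
    · exact ki_sq hi
  have hjj : j * j = 1 := by
    rcases hj with rfl | hj
    · exact mul_one 1
    · exact ki_sq hj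
  set q : S →* Abelianization S := Abelianization.of with hq
  set Δ : Subgroup S := (Subgroup.closure {q ⟨i, hiS⟩, q ⟨j, hjS⟩}).comap q with hΔ
  have hker : ∀ v : S, (v : Ω) ∈ Cfsg.Agent.H617.FusFour.E S → q v = 1 := by
    intro v hv
    rw [← map_one q]
    exact of_eq_iff.2 (by
      have h1 := Subgroup.inv_mem _ hv
      simpa using h1)
  have hEΔ : ∀ v : S, (v : Ω) ∈ Cfsg.Agent.H617.FusFour.E S → v ∈ Δ := by
    intro v hv
    rw [hΔ, Subgroup.mem_comap, hker v hv]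
    exact Subgroup.one_mem _
  have hcomm : ∀ a b : S, a * b * a⁻¹ * b⁻¹ ∈ Δ := fun a b =>
    hEΔ _ (comm_mem a.2 b.2)
  -- the four-groups are contained in `Δ`
  have hKΔ : ∀ E K, Ess F E → Kl F d E K → ∀ v : S, (v : Ω) ∈ K → v ∈ Δ := by
    intro E K hE hK v hv
    by_cases hvZ : (v : Ω) ∈ Z S
    · apply hEΔ
      rcases hK.eq_one_or hd1 hdd hdZ hv hvZ with h1 | h1
      · rw [h1]; exact Subgroup.one_mem _
      · rw [h1]; exact hdE
    · rcases hk v ⟨E, K, hE, hK, hv, hvZ⟩ with h1 | h1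
      · have h2 : q ⟨i, hiS⟩ = q v := of_eq_iff.2 h1
        rw [hΔ, Subgroup.mem_comap, ← h2]
        exact Subgroup.subset_closure (by simp)
      · have h2 : q ⟨j, hjS⟩ = q v := of_eq_iff.2 h1
        rw [hΔ, Subgroup.mem_comap, ← h2]
        exact Subgroup.subset_closure (by simp)
  have hcen : ∀ z : S, (z : Ω) ∈ Z S → z ∈ Δ → z = 1 ∨ (z : Ω) = d := by
    intro z hz hzΔ
    rw [hΔ, Subgroup.mem_comap, Subgroup.mem_closure_pair] at hzΔ
    obtain ⟨m, n, hmn⟩ := hzΔ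
    have hfin : ∀ w : S, q w = q z → (w : Ω) ∈ NS S := by
      intro w hw
      have h1 := of_eq_iff.1 hw
      have h2 := (NS S).mul_mem (Z_le_NS hz) ((NS S).inv_mem (E_le_NS h1))
      have h3 : (z : Ω) * ((w : Ω)⁻¹ * z)⁻¹ = w := by group
      rwa [h3] at h2
    have hdone : q z = 1 → z = 1 ∨ (z : Ω) = d := by
      intro h1
      have h2 : q 1 = q z := by rw [map_one, h1]
      have h3 := of_eq_iff.1 h2
      simp only [OneMemClass.coe_one, inv_one, one_mul] at h3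
      rcases hdu z h3 hz with h4 | h4
      · exact Or.inl (Subtype.ext h4)
      · exact Or.inr h4
    have hqi : q ⟨i, hiS⟩ * q ⟨i, hiS⟩ = 1 := by
      rw [← map_mul, ← map_one q]
      exact congrArg q (Subtype.ext hii)
    have hqj : q ⟨j, hjS⟩ * q ⟨j, hjS⟩ = 1 := by
      rw [← map_mul, ← map_one q]
      exact congrArg q (Subtype.ext hjj)
    have hI : q ⟨i, hiS⟩ = q z → z = 1 ∨ (z : Ω) = d := by
      intro h1
      rcases hi with rfl | hi
      · exact hdone (by rw [← h1]; exact map_one q)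
      · exact absurd (h.NS_le_A (hfin _ h1)) (h.ki_notMem hNQ hi)
    have hJ : q ⟨j, hjS⟩ = q z → z = 1 ∨ (z : Ω) = d := by
      intro h1
      rcases hj with rfl | hj
      · exact hdone (by rw [← h1]; exact map_one q)
      · exact absurd (h.NS_le_A (hfin _ h1)) (h.ki_notMem hNQ hj)
    rcases zpow_cases hqi m with h1 | h1 <;> rcases zpow_cases hqj n with h2 | h2 <;>
      rw [h1, h2] at hmn
    · exact hdone (by rw [← hmn, mul_one])
    · rw [one_mul] at hmn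
      exact hJ hmn
    · rw [mul_one] at hmn
      exact hI hmn
    · rcases hi with rfl | hi
      · exact hJ (by rw [← hmn]; rw [show q ⟨1, hiS⟩ = 1 from map_one q, one_mul])
      · rcases hj with rfl | hj
        · exact hI (by rw [← hmn]; rw [show q ⟨1, hjS⟩ = 1 from map_one q, mul_one])
        · exfalso
          apply hij hi hj
          have h3 := hfin (⟨i, hiS⟩ * ⟨j, hjS⟩) (by rw [map_mul, hmn])
          have h4 : i⁻¹ = i := inv_eq_of_mul_eq_one_left hii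
          rw [h4]
          exact h3
  have hdΔ : ∀ v : S, (v : Ω) = d → v ∈ Δ := fun v hv => hEΔ v (hv ▸ hdE)
  have hfoc : ∀ u v : S, F.IsConjElt (u : Ω) (v : Ω) → u⁻¹ * v ∈ Δ := by
    intro u v huv
    have h1 := Cfsg.Agent.H934.FTD1.mem_iff h.pgrp hF
      {w : Ω | ∃ hw : w ∈ S, u⁻¹ * ⟨w, hw⟩ ∈ Δ} ?_ ?_ huv
    · have h2 : ∃ hw : (u : Ω) ∈ S, u⁻¹ * ⟨(u : Ω), hw⟩ ∈ Δ := ⟨u.2, by
        rw [show (⟨(u : Ω), u.2⟩ : S) = u from rfl, inv_mul_cancel]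
        exact Δ.one_mem⟩
      obtain ⟨h3, h4⟩ := h1.1 h2
      exact h4
    · rintro s hs t htS ⟨htS2, ht⟩
      refine ⟨S.mul_mem (S.mul_mem hs htS) (S.inv_mem hs), ?_⟩
      have h2 : u⁻¹ * (⟨s * t * s⁻¹, S.mul_mem (S.mul_mem hs htS) (S.inv_mem hs)⟩ : S) =
          (u⁻¹ * ⟨t, htS⟩) * ((⟨t, htS⟩ : S)⁻¹ * (⟨s, hs⟩ * ⟨t, htS⟩ * ⟨s, hs⟩⁻¹)) := by
        apply Subtype.ext
        change (u : Ω)⁻¹ * (s * t * s⁻¹) = ((u : Ω)⁻¹ * t) * (t⁻¹ * (s * t * s⁻¹))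
        group
      rw [h2]
      exact Δ.mul_mem ht (hEΔ _ (inv_mul_conj_mem_E hs htS))
    · rintro E hn hc α hα hodd t ⟨htS, ht⟩
      by_cases hα1 : α = 1
      · rw [hα1]; exact ⟨htS, ht⟩
      have hE : Ess F E := ⟨hn, hc, α, hα, hodd, hα1⟩
      obtain ⟨K, hK⟩ := h.exists_kl hF hNQ hdE hd1 hdd hdZ hdu hE
      have hαS : ((α t : E) : Ω) ∈ S := hn.1 (α t).2
      refine ⟨hαS, ?_⟩
      have h2 : u⁻¹ * (⟨((α t : E) : Ω), hαS⟩ : S) =
          (u⁻¹ * ⟨(t : Ω), htS⟩) * ((⟨(t : Ω), htS⟩ : S)⁻¹ * ⟨((α t : E) : Ω), hαS⟩) := by group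
      rw [h2]
      exact Δ.mul_mem ht (hKΔ E K hE hK _ (hK.mem α hα hodd t))
  refine ⟨d, Δ, hdE, hd1, hdd, hdZ, hcomm, hdΔ, hcen, hfoc, fun w hw hwZ v hv =>
    h.isConjElt_A hF hNQ hw hwZ hv, ?_, fun w hw hwZ => h.nilAt_A hF hNQ hw hwZ,
    h.exists_alt hF hNQ hdE hd1 hdd hdZ hdu⟩
  -- `NilAt F d`
  intro E hE t ht α hα hodd hfix
  by_contra hα1
  obtain ⟨E', t', α', hn', hc', ht', hα', hodd', hfix', hα1'⟩ :=
    Cfsg.Agent.H934.FTC1.exists_centric h.pgrp hF hE ht hα hodd hfix hα1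
  have hE' : Ess F E' := ⟨hn', hc', α', hα', hodd', hα1'⟩
  obtain ⟨K, hK⟩ := h.exists_kl hF hNQ hdE hd1 hdd hdZ hdu hE'
  have htZ : (t' : Ω) ∈ Z S := hK.fix α' hα' hodd' hα1' t' hfix'
  have h1 := hfoc ⟨d, E_le hdE⟩ ⟨t', hE'.1.1 t'.2⟩ ht'
  have h2 : (⟨(t' : Ω), hE'.1.1 t'.2⟩ : S) ∈ Δ := by
    have h3 := Δ.mul_mem (hdΔ ⟨d, E_le hdE⟩ rfl) h1
    rwa [mul_inv_cancel_left] at h3
  rcases hcen _ htZ h2 with h3 | h3
  · have h4 : (t' : Ω) = 1 := congrArg Subtype.val h3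
    rw [h4] at ht'
    exact hd1 (eq_one_of_isConjElt ht')
  · exact hK.d_ne α' hα' hodd' hα1' t' h3 hfix'

end Grp

end Cfsg.Agent.H645.FT
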