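import Mathlib
import Cfsg.Agent.H650.StarDat
import Cfsg.Agent.H619.TameSys
import Cfsg.Agent.H619.TameStar
import Cfsg.Agent.H617.FusTwo

/-!
# The trace of the star action of a linear character
-/

set_option autoImplicit false

open Cfsg
open scoped ComplexConjugate

namespace Cfsg.Agent.H645.FT

open Cfsg.Agent.Blocks.Blau Cfsg.Agent.Blocks.Local Cfsg.Agent.Characters
open Cfsg.Agent.H613.RegGram Cfsg.Agent.H613.Contrib Cfsg.Agent.H613.SubSys
open Cfsg.Agent.H613.SubFus Cfsg.Agent.H619.Tame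
open Cfsg.Agent.H639 Cfsg.Agent.H649 Cfsg.Agent.H651 Cfsg.Agent.H650
open Cfsg.Agent.H617.FusTwo (Z mem_Z)

universe u
variable {G : Type u} [Group G] [Finite G] {M : Ideal AlgInt}
  {B : Set (IrrCharacter G)} {a : BrauerPairIdx G} {F : FusionSystem a.1}

/-- **Vanishing trace**: a linear character trivial on the focal subgroup, but not on the centre. -/
theorem trace_zero (hM : IsPModular 2 M) (hmax : IsMaximalBrauerPair 2 M B a.1 a.2)
    (hF : IsBlockFusionSystemOn 2 M B a.1 a.2 F) {l : a.1 →* ℂˣ} (hl : l ∈ Lam F) {z : a.1}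
    (hz : (z : G) ∈ Z a.1) (hlz : l z ≠ 1) :
    (blockRank 2 B : ℂ) + ∑ i : Cl M a, ((l ⟨rep i, rep_mem i⟩ : ℂˣ) : ℂ) *
      (blockRank 2 (bel 2 M a (rep i)).2 : ℂ) = 0 := by
  classical
  have hp : Fact (Nat.Prime 2) := ⟨Nat.prime_two⟩
  have := Fintype.ofFinite G
  have := Core.finite_irr (G := G)
  have := Fintype.ofFinite B
  have D := dat_of hM hmax hF
  have hst : IsStable 2 M a (ext0 a.1 l) := isStable_ext0 hF hl
  have hsys := isSys_rep hM hmax
  have hB : IsPBlock M B := hmax.1.2.1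
  -- each diagonal inner product vanishes
  have h0 : ∀ χ : B, classInner (star 2 M a (ext0 a.1 l) ((χ : IrrCharacter G) : G → ℂ))
      ((χ : IrrCharacter G) : G → ℂ) = 0 := by
    intro χ
    have h1 := D.isIrr hl χ.2
    refine Core.classInner_irr_ne h1 (χ : IrrCharacter G).2 ?_
    intro h2
    apply hlz
    refine D.eq_one_of_central hl χ.2 h2 z.2 ?_
    rw [Subgroup.mem_centralizer_iff]
    exact fun g hg => (mem_Z.1 hz).2 g hg
  have h1 : ∀ χ : B, ext0 a.1 l 1 * rg 2 ((χ : IrrCharacter G) : G → ℂ)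
      ((χ : IrrCharacter G) : G → ℂ) + ∑ i : Cl M a, ext0 a.1 l (rep i) *
        Cn 2 (rep i) (bel 2 M a (rep i)) ((χ : IrrCharacter G) : G → ℂ)
          ((χ : IrrCharacter G) : G → ℂ) = 0 := by
    intro χ
    rw [← classInner_star_sys hM hmax (fun i => rep_mem i) hsys hst χ.2 χ.2]
    exact h0 χ
  have h2 := Finset.sum_congr (s₁ := (Finset.univ : Finset B)) rfl (fun χ _ => h1 χ)
  rw [Finset.sum_const_zero, Finset.sum_add_distrib, ← Finset.mul_sum, sum_rg_self hM hB,
    Finset.sum_comm] at h2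
  rw [ext0_apply_one, one_mul] at h2
  rw [← h2]
  congr 1
  refine Finset.sum_congr rfl fun i _ => ?_
  rw [← Finset.mul_sum, (hsys.sub i).sum_Cn_self hM, ext0_of_mem l (rep_mem i)]

end Cfsg.Agent.H645.FT
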