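import Mathlib
import Cfsg.Agent.H645.FT.Star
import Cfsg.Agent.H645.FT.DeltaB
import Cfsg.Agent.H755.FTB3
import Cfsg.Agent.H352.FTG1
import Cfsg.Agent.H613.RankPos

/-!
# The number of characters of the block
-/

set_option autoImplicit false

open Cfsg Cfsg.FusionSystem

namespace Cfsg.Agent.H645.FT

open Cfsg.Agent.Blocks.Local Cfsg.Agent.Characters
open Cfsg.Agent.H613.SubSys Cfsg.Agent.H613.SubFus Cfsg.Agent.H619.Tame
open Cfsg.Agent.H639 Cfsg.Agent.H649 Cfsg.Agent.H650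
open Cfsg.Agent.H617.FusTwo (Z mem_Z Z_le)

section Focal

variable {Ω : Type*} [Group Ω] {S A : Subgroup Ω} {y d : Ω} {F : FusionSystem S}
  {Δ : Subgroup S}

theorem isConjElt_of_hom {P : Subgroup Ω} {φ : P →* Ω} (hφ : φ ∈ F.Hom P) (x : P) :
    F.IsConjElt (x : Ω) (φ x) := by
  have h1 : Subgroup.zpowers (x : Ω) ≤ P := Subgroup.zpowers_le.2 x.2
  exact ⟨φ.comp (Subgroup.inclusion h1), Cfsg.Agent.H802.restrict_mem hφ h1, rfl⟩

theorem FD.normal (fd : FD S A y F d Δ) : Δ.Normal := by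
  refine ⟨fun n hn g => ?_⟩
  have h1 : g * n * g⁻¹ = (g * n * g⁻¹ * n⁻¹) * n := by group
  rw [h1]
  exact Δ.mul_mem (fd.comm g n) hn

theorem FD.focal_le (fd : FD S A y F d Δ) : F.focalSubgroup.subgroupOf S ≤ Δ := by
  intro v hv
  have h1 : F.focalSubgroup ≤ Δ.map S.subtype := by
    refine (Subgroup.closure_le _).2 ?_
    rintro _ ⟨P, φ, x, hφ, rfl⟩
    have h2 := fd.foc ⟨x, (F.le_of_mem hφ).1 x.2⟩ ⟨φ x, (F.le_of_mem hφ).2 x⟩
      (isConjElt_of_hom hφ x)
    exact ⟨_, h2, rfl⟩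
  obtain ⟨w, hw, hwv⟩ := h1 hv
  have h2 : w = v := Subtype.ext hwv
  rwa [← h2]

end Focal

universe u
variable {G : Type u} [Group G] [Finite G] {M : Ideal AlgInt}
  {B : Set (IrrCharacter G)} {a : BrauerPairIdx G} {F : FusionSystem a.1}
  {A : Subgroup G} {x e y d : G} {Δ : Subgroup a.1}

open Classical in
/-- The sums of the ranks over the cosets of `Δ`. -/
noncomputable def sg (M : Ideal AlgInt) (B : Set (IrrCharacter G)) {a : BrauerPairIdx G}
    (Δ : Subgroup a.1) (v : a.1 ⧸ Δ) : ℕ :=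
  (if v = ((1 : a.1) : a.1 ⧸ Δ) then blockRank 2 B else 0) +
    ∑ i : Cl M a with (((⟨rep i, rep_mem i⟩ : a.1) : a.1 ⧸ Δ) = v),
      blockRank 2 (bel 2 M a (rep i)).2

/-- The total. -/
theorem sum_sg (hM : IsPModular 2 M) (hmax : IsMaximalBrauerPair 2 M B a.1 a.2)
    [Fintype (a.1 ⧸ Δ)] : ∑ v : a.1 ⧸ Δ, sg M B Δ v = Nat.card B := by
  classical
  have hp : Fact (Nat.Prime 2) := ⟨Nat.prime_two⟩
  have hB : IsPBlock M B := hmax.1.2.1
  rw [(isSys_rep hM hmax).card_eq hM hB]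
  unfold sg
  rw [Finset.sum_add_distrib]
  congr 1
  · rw [Finset.sum_ite_eq' Finset.univ _ _, if_pos (Finset.mem_univ _)]
  · exact Finset.sum_fiberwise _ _ _

/-- The sums over the cosets of central elements. -/
theorem sg_eq (hM : IsPModular 2 M) (hmax : IsMaximalBrauerPair 2 M B a.1 a.2)
    (hF : IsBlockFusionSystemOn 2 M B a.1 a.2 F) (fd : FD a.1 A y F d Δ) {z : a.1}
    (hz : (z : G) ∈ Z a.1) :
    sg M B Δ (z : a.1 ⧸ Δ) = sg M B Δ ((1 : a.1) : a.1 ⧸ Δ) := by
  classical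
  have hn := fd.normal
  have := Fintype.ofFinite (a.1 ⧸ Δ)
  have hab : ∀ v w : a.1 ⧸ Δ, v * w = w * v := by
    intro v w
    obtain ⟨v, rfl⟩ := QuotientGroup.mk_surjective v
    obtain ⟨w, rfl⟩ := QuotientGroup.mk_surjective w
    rw [← QuotientGroup.mk_mul, ← QuotientGroup.mk_mul]
    refine QuotientGroup.eq.2 ?_
    have h1 := fd.comm w⁻¹ v⁻¹
    have h2 : w⁻¹ * v⁻¹ * w⁻¹⁻¹ * v⁻¹⁻¹ = (v * w)⁻¹ * (w * v) := by group
    rwa [h2] at h1
  refine Cfsg.Agent.H352.FTG1.eq_of_trace hab (sg M B Δ) (z : a.1 ⧸ Δ) ?_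
  intro l hl
  set l' : a.1 →* ℂˣ := l.comp (QuotientGroup.mk' Δ) with hl'
  have hL : l' ∈ Lam F := by
    intro v hv
    have h1 := fd.focal_le hv
    rw [hl', MonoidHom.comp_apply]
    have h2 : QuotientGroup.mk' Δ v = 1 := (QuotientGroup.eq_one_iff v).2 h1
    rw [h2, map_one]
  have h0 := trace_zero hM hmax hF hL (z := z) hz hl
  rw [← h0]
  unfold sg
  have h3 : ∀ v : a.1 ⧸ Δ, ((l v : ℂˣ) : ℂ) * (((if v = ((1 : a.1) : a.1 ⧸ Δ) then blockRank 2 B
      else 0) + ∑ i : Cl M a with (((⟨rep i, rep_mem i⟩ : a.1) : a.1 ⧸ Δ) = v),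
      blockRank 2 (bel 2 M a (rep i)).2 : ℕ) : ℂ) =
      (if v = ((1 : a.1) : a.1 ⧸ Δ) then ((l v : ℂˣ) : ℂ) * (blockRank 2 B : ℂ) else 0) +
      ∑ i : Cl M a with (((⟨rep i, rep_mem i⟩ : a.1) : a.1 ⧸ Δ) = v),
        ((l' ⟨rep i, rep_mem i⟩ : ℂˣ) : ℂ) * (blockRank 2 (bel 2 M a (rep i)).2 : ℂ) := by
    intro v
    push_cast
    rw [mul_add, Finset.mul_sum]
    congr 1
    · split_ifs
      · rfl
      · rw [mul_zero]
    · refine Finset.sum_congr rfl fun i hi => ?_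
      have h4 := (Finset.mem_filter.1 hi).2
      have h5 : l' ⟨rep i, rep_mem i⟩ = l v := by
        rw [← h4]; rfl
      rw [h5]
  rw [Finset.sum_congr rfl fun v _ => h3 v, Finset.sum_add_distrib,
    Finset.sum_ite_eq' Finset.univ _ _, if_pos (Finset.mem_univ _), Finset.sum_fiberwise]
  congr 1
  rw [show l ((1 : a.1) : a.1 ⧸ Δ) = 1 from map_one l, Units.val_one, one_mul]

/-- Elements of `A` in the class of `w` lie in `{w, f w}`. -/
theorem exists_partner (hM : IsPModular 2 M) (hmax : IsMaximalBrauerPair 2 M B a.1 a.2)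
    (hF : IsBlockFusionSystemOn 2 M B a.1 a.2 F) (h : Grp a.1 A x e y) (fd : FD a.1 A y F d Δ)
    {w : a.1} (hw : (w : G) ∈ A) : ∃ w' : G, ∀ v : a.1, (v : G) ∈ A →
      Fus 2 M a (w : G) (v : G) → (v : G) = w ∨ (v : G) = w' := by
  have hiff := fun v : a.1 => Cfsg.Agent.H755.FTB3.fus_iff hM hmax hF w.2 v.2
  by_cases hwZ : (w : G) ∈ Z a.1
  · refine ⟨w * d, fun v hv hwv => ?_⟩
    have hc := (hiff v).1 hwv
    have hvZ : (v : G) ∈ Z a.1 := by
      by_contra hvZ
      have hc' := (Cfsg.Agent.H755.FTB3.fus_iff hM hmax hF v.2 w.2).1 hwv.symm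
      rcases fd.cls v hv hvZ w hc' with h1 | h1
      · exact hvZ (h1 ▸ hwZ)
      · exact h.conj_notMem_Z hvZ (h1 ▸ hwZ)
    have h1 := fd.foc w v hc
    have h2 : ((w⁻¹ * v : a.1) : G) ∈ Z a.1 := (Z a.1).mul_mem ((Z a.1).inv_mem hwZ) hvZ
    rcases fd.cen _ h2 h1 with h3 | h3
    · left
      have h4 := inv_mul_eq_one.1 h3
      rw [h4]
    · right
      have h4 : (w : G)⁻¹ * v = d := h3
      rw [← h4]; group
  · refine ⟨y * w * y⁻¹, fun v hv hwv => ?_⟩
    exact fd.cls w hw hwZ v ((hiff v).1 hwv)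

open Classical in
/-- The number of elements of `A` in a coset of `Δ`. -/
noncomputable def na (A : Subgroup G) {S : Subgroup G} (Δ : Subgroup S) (v : S ⧸ Δ) : ℕ :=
  Nat.card {w : S // (w : G) ∈ A ∧ (w : S ⧸ Δ) = v}

/-- The lower bound, without the identity. -/
theorem card_le_two_mul (hM : IsPModular 2 M) (hmax : IsMaximalBrauerPair 2 M B a.1 a.2)
    (hF : IsBlockFusionSystemOn 2 M B a.1 a.2 F) (h : Grp a.1 A x e y) (fd : FD a.1 A y F d Δ)
    [DecidableEq (a.1 ⧸ Δ)] (v : a.1 ⧸ Δ) :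
    Nat.card {w : a.1 // w ≠ 1 ∧ (w : G) ∈ A ∧ (w : a.1 ⧸ Δ) = v} ≤
      2 * ∑ i : Cl M a with (((⟨rep i, rep_mem i⟩ : a.1) : a.1 ⧸ Δ) = v),
        blockRank 2 (bel 2 M a (rep i)).2 := by
  classical
  have hp : Fact (Nat.Prime 2) := ⟨Nat.prime_two⟩
  have := Fintype.ofFinite a.1
  have hmodp := Cfsg.Agent.Blocks.Local.isPrime_of_isPModular hM
  have hne : ∀ w : a.1, w ≠ 1 → (w : G) ≠ 1 := fun w hw h1 => hw (Subtype.ext h1)
  -- the map to classes
  let s : Finset a.1 := Finset.univ.filter fun w => w ≠ 1 ∧ (w : G) ∈ A ∧ (w : a.1 ⧸ Δ) = v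
  have hs : Nat.card {w : a.1 // w ≠ 1 ∧ (w : G) ∈ A ∧ (w : a.1 ⧸ Δ) = v} = s.card := by
    rw [Nat.card_eq_fintype_card, Fintype.card_subtype]
  let c : a.1 → Option (Cl M a) := fun w =>
    if hw : w ≠ 1 then some (mkCl M a w w.2 (hne w hw)) else none
  let t : Finset (Cl M a) := Finset.univ.filter fun i =>
    (((⟨rep i, rep_mem i⟩ : a.1) : a.1 ⧸ Δ) = v)
  have hmaps : ∀ w ∈ s, c w ∈ t.image some := by
    intro w hw
    obtain ⟨-, hw1, hwA, hwv⟩ := Finset.mem_filter.1 hw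
    rw [Finset.mem_image]
    refine ⟨mkCl M a w w.2 (hne w hw1), ?_, ?_⟩
    · refine Finset.mem_filter.2 ⟨Finset.mem_univ _, ?_⟩
      rw [← hwv]
      have h1 := fus_rep_mk (M := M) (a := a) w.2 (hne w hw1)
      have h2 := (Cfsg.Agent.H755.FTB3.fus_iff hM hmax hF (rep_mem _) w.2).1 h1
      exact QuotientGroup.eq.2 (fd.foc ⟨_, rep_mem _⟩ w h2)
    · simp only [c]
      rw [dif_pos hw1]
  have hfib : ∀ i ∈ t.image some, (s.filter fun w => c w = i).card ≤ 2 := by
    intro i _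
    by_cases hex : ∃ w ∈ s, c w = i
    · obtain ⟨w, hw, hwi⟩ := hex
      obtain ⟨-, hw1, hwA, hwv⟩ := Finset.mem_filter.1 hw
      obtain ⟨w', hw'⟩ := exists_partner hM hmax hF h fd hwA
      have hsub : ((s.filter fun w => c w = i).map ⟨Subtype.val, Subtype.val_injective⟩) ⊆
          ({(w : G), w'} : Finset G) := by
        intro g hg
        rw [Finset.mem_map] at hg
        obtain ⟨u, hu, rfl⟩ := hg
        obtain ⟨hus, hui⟩ := Finset.mem_filter.1 hu
        obtain ⟨-, hu1, huA, huv⟩ := Finset.mem_filter.1 hus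
        have h1 : c w = c u := hwi.trans hui.symm
        simp only [c] at h1
        rw [dif_pos hw1, dif_pos hu1] at h1
        have h2 := (mkCl_eq_iff w.2 (hne w hw1) u.2 (hne u hu1)).1 (Option.some_injective _ h1)
        rw [Finset.mem_insert, Finset.mem_singleton]
        exact hw' u huA h2
      have h3 := Finset.card_le_card hsub
      rw [Finset.card_map] at h3
      exact h3.trans Finset.card_le_two
    · push Not at hex
      rw [Finset.filter_eq_empty_iff.2 fun w hw => hex w hw]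
      norm_num
  have h1 := Finset.card_le_mul_card_image_of_maps_to hmaps 2 hfib
  rw [hs]
  refine h1.trans (Nat.mul_le_mul_left 2 ?_)
  rw [Finset.card_image_of_injective _ (Option.some_injective _), Finset.card_eq_sum_ones]
  refine Finset.sum_le_sum fun i _ => ?_
  exact Cfsg.Agent.H613.RankPos.one_le_blockRank
    (Cfsg.Agent.Blocks.Basic.isPBlock_nonempty (isPBlock_bel hM hmax.1.1 (rep_mem i)))

theorem card_na_one (fd : FD a.1 A y F d Δ) (hdA : d ∈ A) (hA : A ≤ a.1) :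
    2 ∣ na A Δ ((1 : a.1) : a.1 ⧸ Δ) ∧ na A Δ ((1 : a.1) : a.1 ⧸ Δ) =
      Nat.card {w : a.1 // w ≠ 1 ∧ (w : G) ∈ A ∧ (w : a.1 ⧸ Δ) = ((1 : a.1) : a.1 ⧸ Δ)} + 1 := by
  classical
  constructor
  · have h1 : na A Δ ((1 : a.1) : a.1 ⧸ Δ) = Nat.card (A.subgroupOf a.1 ⊓ Δ : Subgroup a.1) := by
      refine Nat.card_congr (Equiv.subtypeEquivRight fun w => ?_)
      rw [Subgroup.mem_inf]
      refine and_congr Iff.rfl ?_
      have := fd.normal
      exact QuotientGroup.eq_one_iff w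
    rw [h1]
    have h2 : orderOf (⟨⟨d, hA hdA⟩, hdA, fd.dΔ _ rfl⟩ : (A.subgroupOf a.1 ⊓ Δ : Subgroup a.1))
        = 2 := by
      rw [orderOf_eq_prime_iff]
      constructor
      · apply Subtype.ext
        apply Subtype.ext
        change d ^ 2 = 1
        rw [pow_two, fd.dd]
      · intro h3
        exact fd.d1 (congrArg (fun w => ((w : a.1) : G)) (congrArg Subtype.val h3))
    rw [← h2]
    exact orderOf_dvd_natCard _
  · have := Fintype.ofFinite a.1
    unfold na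
    rw [Nat.card_eq_fintype_card, Nat.card_eq_fintype_card, Fintype.card_subtype,
      Fintype.card_subtype]
    have h1 : (Finset.univ.filter fun w : a.1 => (w : G) ∈ A ∧ (w : a.1 ⧸ Δ) =
        ((1 : a.1) : a.1 ⧸ Δ)) = insert 1 (Finset.univ.filter fun w : a.1 => w ≠ 1 ∧ (w : G) ∈ A ∧
          (w : a.1 ⧸ Δ) = ((1 : a.1) : a.1 ⧸ Δ)) := by
      ext w
      simp only [Finset.mem_filter, Finset.mem_univ, true_and, Finset.mem_insert]
      constructor
      · intro h2
        by_cases hw : w = 1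
        · exact Or.inl hw
        · exact Or.inr ⟨hw, h2⟩
      · rintro (rfl | h2)
        · exact ⟨A.one_mem, rfl⟩
        · exact h2.2
    rw [h1, Finset.card_insert_of_notMem]
    simp

/-- **The main inequality.** -/
theorem card_ge (hM : IsPModular 2 M) (hmax : IsMaximalBrauerPair 2 M B a.1 a.2)
    (hF : IsBlockFusionSystemOn 2 M B a.1 a.2 F) (h : Grp a.1 A x e y) (fd : FD a.1 A y F d Δ) :
    Nat.card (Z a.1) * blockRank 2 B + Nat.card A ≤ 2 * Nat.card B := by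
  classical
  have hn := fd.normal
  have := Fintype.ofFinite a.1
  have := Fintype.ofFinite (a.1 ⧸ Δ)
  have hdA : d ∈ A := h.Z_le_A fd.dZ
  have hfinZ : Finite (Z a.1) := Cfsg.Agent.H802.finite_of_le Z_le
  have := Fintype.ofFinite (Z a.1)
  -- the image of the centre
  let q : Z a.1 → a.1 ⧸ Δ := fun z => ((⟨z, Z_le z.2⟩ : a.1) : a.1 ⧸ Δ)
  let zb : Finset (a.1 ⧸ Δ) := Finset.univ.image q
  have hzb : Nat.card (Z a.1) ≤ 2 * zb.card := by
    rw [Nat.card_eq_fintype_card, ← Finset.card_univ]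
    refine Finset.card_le_mul_card_image _ 2 fun v hv => ?_
    obtain ⟨z, -, rfl⟩ := Finset.mem_image.1 hv
    have hsub : ((Finset.univ.filter fun w => q w = q z).map
        ⟨Subtype.val, Subtype.val_injective⟩) ⊆ ({(z : G), z * d} : Finset G) := by
      intro g hg
      rw [Finset.mem_map] at hg
      obtain ⟨w, hw, rfl⟩ := hg
      have h1 := (Finset.mem_filter.1 hw).2
      have h2 : (⟨z, Z_le z.2⟩ : a.1)⁻¹ * ⟨w, Z_le w.2⟩ ∈ Δ := QuotientGroup.eq.1 h1.symm
      rw [Finset.mem_insert, Finset.mem_singleton]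
      rcases fd.cen _ ((Z a.1).mul_mem ((Z a.1).inv_mem z.2) w.2) h2 with h3 | h3
      · left
        have h4 := congrArg Subtype.val (inv_mul_eq_one.1 h3)
        exact h4.symm
      · right
        have h4 : (z : G)⁻¹ * w = d := h3
        change (w : G) = z * d
        rw [← h4]; group
    have h3 := Finset.card_le_card hsub
    rw [Finset.card_map] at h3
    exact h3.trans Finset.card_le_two
  -- the lower bounds
  have h1 : na A Δ ((1 : a.1) : a.1 ⧸ Δ) + 2 * blockRank 2 B ≤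
      2 * sg M B Δ ((1 : a.1) : a.1 ⧸ Δ) := by
    obtain ⟨h2, h3⟩ := card_na_one fd hdA h.le
    have h4 := card_le_two_mul hM hmax hF h fd ((1 : a.1) : a.1 ⧸ Δ)
    have h5 : sg M B Δ ((1 : a.1) : a.1 ⧸ Δ) = blockRank 2 B + ∑ i : Cl M a with
        (((⟨rep i, rep_mem i⟩ : a.1) : a.1 ⧸ Δ) = ((1 : a.1) : a.1 ⧸ Δ)),
        blockRank 2 (bel 2 M a (rep i)).2 := by
      unfold sg
      rw [if_pos rfl]
    rw [h5]
    omega
  have h2 : ∀ v : a.1 ⧸ Δ, na A Δ v + (if v ∈ zb then 2 * blockRank 2 B else 0) ≤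
      2 * sg M B Δ v := by
    intro v
    split_ifs with hv
    · obtain ⟨z, -, rfl⟩ := Finset.mem_image.1 hv
      have h3 : sg M B Δ (q z) = sg M B Δ ((1 : a.1) : a.1 ⧸ Δ) := sg_eq hM hmax hF fd z.2
      have h4 : na A Δ (q z) = na A Δ ((1 : a.1) : a.1 ⧸ Δ) := by
        refine Nat.card_congr ?_
        refine (Equiv.subtypeEquiv (Equiv.mulLeft (⟨z, Z_le z.2⟩ : a.1)) fun w => ?_).symm
        have hzA : (z : G) ∈ A := h.Z_le_A z.2
        refine and_congr ?_ ?_
        · constructor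
          · exact fun h5 => A.mul_mem hzA h5
          · intro h5
            have h6 := A.mul_mem (A.inv_mem hzA) h5
            have h7 : (z : G)⁻¹ * ((Equiv.mulLeft (⟨z, Z_le z.2⟩ : a.1)) w : a.1) = w := by
              change (z : G)⁻¹ * (z * w) = w
              group
            rwa [h7] at h6
        · change _ ↔ (((⟨z, Z_le z.2⟩ : a.1) * w : a.1) : a.1 ⧸ Δ) = _
          rw [QuotientGroup.mk_mul]
          constructor
          · intro h5
            rw [h5, QuotientGroup.mk_one, mul_one]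
          · intro h5
            exact mul_left_cancel (h5.trans (by rw [QuotientGroup.mk_one, mul_one]))
      rw [h3, h4]
      exact h1
    · rw [add_zero]
      have hv1 : v ≠ ((1 : a.1) : a.1 ⧸ Δ) := by
        rintro rfl
        apply hv
        exact Finset.mem_image.2 ⟨1, Finset.mem_univ _, rfl⟩
      have h3 := card_le_two_mul hM hmax hF h fd v
      have h4 : na A Δ v = Nat.card {w : a.1 // w ≠ 1 ∧ (w : G) ∈ A ∧ (w : a.1 ⧸ Δ) = v} := by
        refine Nat.card_congr (Equiv.subtypeEquivRight fun w => ?_)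
        constructor
        · rintro ⟨h5, h6⟩
          exact ⟨fun h7 => hv1 (by rw [← h6, h7]), h5, h6⟩
        · rintro ⟨-, h5, h6⟩
          exact ⟨h5, h6⟩
      have h5 : sg M B Δ v = ∑ i : Cl M a with
          (((⟨rep i, rep_mem i⟩ : a.1) : a.1 ⧸ Δ) = v),
          blockRank 2 (bel 2 M a (rep i)).2 := by
        unfold sg
        rw [if_neg hv1, zero_add]
      rw [h4, h5]
      exact h3
  have h3 := Finset.sum_le_sum fun v (_ : v ∈ (Finset.univ : Finset (a.1 ⧸ Δ))) => h2 v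
  rw [Finset.sum_add_distrib, ← Finset.mul_sum, sum_sg hM hmax, Finset.sum_ite_mem,
    Finset.univ_inter, Finset.sum_const, smul_eq_mul] at h3
  have h4 : ∑ v : a.1 ⧸ Δ, na A Δ v = Nat.card A := by
    have h5 : Nat.card A = (Finset.univ.filter fun w : a.1 => (w : G) ∈ A).card := by
      rw [← Fintype.card_subtype, ← Nat.card_eq_fintype_card]
      refine Nat.card_congr ⟨fun w => ⟨⟨w, h.le w.2⟩, w.2⟩, fun w => ⟨w.1, w.2⟩, fun w => rfl,
        fun w => rfl⟩
    rw [h5, Finset.card_eq_sum_card_fiberwise (f := fun w : a.1 => (w : a.1 ⧸ Δ))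
      (t := Finset.univ) (fun _ _ => Finset.mem_coe.2 (Finset.mem_univ _))]
    refine Finset.sum_congr rfl fun v _ => ?_
    unfold na
    rw [Nat.card_eq_fintype_card, Fintype.card_subtype, Finset.filter_filter]
  rw [h4] at h3
  have h5 : Nat.card (Z a.1) * blockRank 2 B ≤ zb.card * (2 * blockRank 2 B) := by
    calc Nat.card (Z a.1) * blockRank 2 B ≤ 2 * zb.card * blockRank 2 B :=
          Nat.mul_le_mul_right _ hzb
      _ = _ := by ring
  omega

end Cfsg.Agent.H645.FT
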