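import Mathlib
import Cfsg.Agent.H645.FT.Count
import Cfsg.Agent.H613.NilRank
import Cfsg.Agent.H613.SubDef
import Cfsg.Agent.H617.RankOneCol
import Cfsg.Agent.H639.FTN2
import Cfsg.Agent.S4541
import Cfsg.Agent.S4678
import Cfsg.Agent.S0908

/-!
# Characters of height zero, and the bound for the rank
-/

set_option autoImplicit false

open Cfsg Cfsg.FusionSystem

namespace Cfsg.Agent.H645.FT

open Cfsg.Agent.Blocks.Local Cfsg.Agent.Characters
open Cfsg.Agent.H613.SubSys Cfsg.Agent.H613.SubFus Cfsg.Agent.H619.Tame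
open Cfsg.Agent.H639 Cfsg.Agent.H649 Cfsg.Agent.H650
open Cfsg.Agent.H617.FusTwo (C Z mem_Z Z_le mem_C)
open Cfsg.Agent.H617.FusFour (card_C_in)

universe u
variable {G : Type u} [Group G] [Finite G] {M : Ideal AlgInt}
  {B : Set (IrrCharacter G)} {a : BrauerPairIdx G} {F : FusionSystem a.1}
  {A : Subgroup G} {x e y d : G} {Δ : Subgroup a.1}

/-- The number of characters of height zero. -/
noncomputable abbrev k0 (B : Set (IrrCharacter G)) : ℕ :=
  Nat.card {χ : IrrCharacter G // χ ∈ B ∧ blockHeight 2 B (χ : G → ℂ) = 0}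

theorem k0_le_of_subsec (hM : IsPModular 2 M) (hB : IsPBlock M B) {u : G}
    {b : BrauerPairIdx G} (hsub : IsSubsec 2 M B u b) (hl : blockRank 2 b.2 ≤ 3) :
    k0 B ≤ 2 ^ blockDefect 2 b.2 := by
  have key : ∀ (H : Subgroup G) (_ : H = Subgroup.centralizer ({u} : Set G))
      (f : Set (IrrCharacter H)), IsInducedBlock M H f B → blockRank 2 f ≤ 3 →
      k0 B ≤ 2 ^ blockDefect 2 f := by
    rintro H rfl f hf hl
    exact (Cfsg.Agent.S4541.result M hM B hB u hsub.pelt f hf).2.2 hl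
  exact key _ hsub.centralizer_eq b.2 hsub.ind hl

theorem rank_bel_of_nilAt (hM : IsPModular 2 M) (hmax : IsMaximalBrauerPair 2 M B a.1 a.2)
    (hF : IsBlockFusionSystemOn 2 M B a.1 a.2 F) {u : G} (hu : u ∈ a.1) (h : NilAt F u) :
    blockRank 2 (bel 2 M a u).2 = 1 := by
  have hp : Fact (Nat.Prime 2) := ⟨Nat.prime_two⟩
  exact Cfsg.Agent.H613.NilRank.rank_one hM (Cfsg.Agent.H755.FTB3.nil_bel hM hmax hF hu h)

/-- The first alternative. -/
theorem k0_le_first (hM : IsPModular 2 M) (hmax : IsMaximalBrauerPair 2 M B a.1 a.2)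
    (hF : IsBlockFusionSystemOn 2 M B a.1 a.2 F) {u : G} (hu : u ∈ a.1)
    (hnil : NilAt F u) {n : ℕ} (hC : ∀ v, F.IsConjElt u v → Nat.card (C a.1 v) = n) :
    k0 B ≤ n := by
  have hp : Fact (Nat.Prime 2) := ⟨Nat.prime_two⟩
  obtain ⟨v, hv, huv, hcard⟩ := Cfsg.Agent.H613.SubDef.exists_fus_defect hM hmax hu
  have h1 := (Cfsg.Agent.H755.FTB3.fus_iff hM hmax hF hu hv).1 huv
  have h2 := k0_le_of_subsec hM hmax.1.2.1 (isSubsec_bel hM hmax hu)
    (by rw [rank_bel_of_nilAt hM hmax hF hu hnil]; norm_num)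
  refine h2.trans ?_
  rw [hcard]
  exact (hC v h1).le

/-- The second alternative. -/
theorem k0_le_second (hM : IsPModular 2 M) (hmax : IsMaximalBrauerPair 2 M B a.1 a.2)
    (hF : IsBlockFusionSystemOn 2 M B a.1 a.2 F) (h : Grp a.1 A x e y) (fd : FD a.1 A y F d Δ)
    {u : G} (hu : u ∈ A) (huZ : u ∉ Z a.1)
    (hou : orderOf u = 2 * Nat.card (Cfsg.Agent.H617.FusFour.E a.1))
    (h4 : 4 ≤ Nat.card (Cfsg.Agent.H617.FusFour.E a.1)) {s : G} (hs : s ∈ a.1)
    (hsu : s * u * s⁻¹ = u⁻¹) : k0 B ≤ 2 * Nat.card (Z a.1) := by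
  have hp : Fact (Nat.Prime 2) := ⟨Nat.prime_two⟩
  have := Fintype.ofFinite G
  have huS := h.le hu
  have hmodp := Cfsg.Agent.Blocks.Local.isPrime_of_isPModular hM
  -- the order of `u`
  obtain ⟨k, hk⟩ : ∃ k, orderOf u = 2 ^ k := by
    obtain ⟨k, hk⟩ := IsPGroup.iff_orderOf.1 h.pgrp ⟨u, huS⟩
    rw [Subgroup.orderOf_mk] at hk
    exact ⟨k, hk⟩
  have hk3 : 3 ≤ k := by
    by_contra hcon
    have h1 : 2 ^ k ≤ 2 ^ 2 := Nat.pow_le_pow_right (by norm_num) (by omega)
    omega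
  obtain ⟨j, rfl⟩ : ∃ j, k = j + 1 := ⟨k - 1, by omega⟩
  have hj : 2 ^ j = Nat.card (Cfsg.Agent.H617.FusFour.E a.1) := by
    rw [hk, pow_succ] at hou
    omega
  -- `s` is not in `A`
  have hsA : s ∉ A := by
    intro hsA
    have h1 : s * u * s⁻¹ = u := by rw [h.comm s hsA u hu]; group
    rw [h1] at hsu
    have h2 : u ^ 2 = 1 := by
      rw [pow_two]
      nth_rewrite 1 [hsu]
      exact inv_mul_cancel u
    have h3 := Nat.le_of_dvd (by norm_num) (orderOf_dvd_of_pow_eq_one h2)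
    rw [hk, pow_succ] at h3
    omega
  have hyu : y * u * y⁻¹ = u⁻¹ := by rw [← h.conj_eq hs hsA hu, hsu]
  have ht : u⁻¹ = u ^ (2 ^ (j + 1) - 1) := by
    rw [inv_eq_iff_mul_eq_one, ← pow_succ', Nat.sub_add_cancel Nat.one_le_two_pow, ← hk,
      pow_orderOf_eq_one]
  -- the defect
  have hdef : 2 ^ blockDefect 2 (bel 2 M a u).2 = Nat.card A := by
    obtain ⟨v, hv, huv, hcard⟩ := Cfsg.Agent.H613.SubDef.exists_fus_defect hM hmax huS
    have h1 := (Cfsg.Agent.H755.FTB3.fus_iff hM hmax hF huS hv).1 huv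
    have h2 : v ∈ A ∧ v ∉ Z a.1 := by
      rcases fd.cls u hu huZ v h1 with rfl | rfl
      · exact ⟨hu, huZ⟩
      · exact ⟨h.conj_mem h.yS hu, h.conj_notMem_Z huZ⟩
    have h3 : C a.1 v = A := card_C_in h.le h.idx h.comm h2.1 h2.2
    rw [hcard]
    change Nat.card (C a.1 v) = _
    rw [h3]
  have hsub := isSubsec_bel hM hmax huS
  have hfblk : IsPBlock M (bel 2 M a u).2 := isPBlock_bel hM hmax.1.1 huS
  -- `s` normalizes `⟨u⟩`
  have hnorm : ∀ g w, g * u * g⁻¹ = u ^ w → g ∈ Subgroup.normalizer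
      ((Subgroup.zpowers u : Subgroup G) : Set G) := by
    intro g w hg
    have hmap : (Subgroup.zpowers u).map (MulAut.conj g).toMonoidHom ≤ Subgroup.zpowers u := by
      rw [MonoidHom.map_zpowers, Subgroup.zpowers_le]
      change g * u * g⁻¹ ∈ _
      rw [hg]
      exact Subgroup.npow_mem_zpowers u w
    have hcard : Nat.card ((Subgroup.zpowers u).map (MulAut.conj g).toMonoidHom) =
        Nat.card (Subgroup.zpowers u) :=
      Nat.card_congr ((Subgroup.zpowers u).equivMapOfInjective _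
        (MulAut.conj g).injective).symm.toEquiv
    have heq := Subgroup.eq_of_le_of_card_ge hmap (le_of_eq hcard.symm)
    exact (mem_normalizer_iff_map_conj _ g).2 heq
  have := Fintype.ofFinite (Subgroup.centralizer ((Subgroup.zpowers u : Subgroup G) : Set G))
  have hmain := Cfsg.Agent.H617.RankOneCol.card_height_zero_le hM (u := u) (j := j) (by omega) hk
    (H := Subgroup.centralizer ((Subgroup.zpowers u : Subgroup G) : Set G))
    hsub.centralizer_eq (b := (bel 2 M a u).2) hsub.ind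
    (rank_bel_of_nilAt hM hmax hF huS (fd.nilw u hu huZ)) (s := s) (Or.inl rfl)
    (hsu.trans ht) (stabilizes_of_mem hM hmax.1.1 (bel_snd hM hmax.1.1 huS).2 hs
      (hnorm s _ (hsu.trans ht))) ?_
  · have hcA := h.card_A
    have h5 : 2 ^ j * k0 B ≤ 2 ^ j * (2 * Nat.card (Z a.1)) := by
      calc 2 ^ j * k0 B ≤ 2 ^ (blockDefect 2 (bel 2 M a u).2 + 1) := hmain
        _ = Nat.card A * 2 := by rw [pow_succ, hdef]
        _ = 2 ^ j * (2 * Nat.card (Z a.1)) := by rw [hcA, hj]; ring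
    exact Nat.le_of_mul_le_mul_left h5 (by positivity)
  · intro g w hg hst
    have h1 : conjIdx g (bel 2 M a u) = bel 2 M a u :=
      (conjIdx_eq_iff hfblk g).2 ⟨hnorm g w hg, hst⟩
    have huw : u ^ w ∈ a.1 := a.1.pow_mem huS w
    have hz : Subgroup.zpowers (u ^ w) = Subgroup.zpowers u := by
      have h2 : Subgroup.zpowers (u ^ w) ≤ Subgroup.zpowers u :=
        Subgroup.zpowers_le.2 (Subgroup.npow_mem_zpowers u w)
      refine Subgroup.eq_of_le_of_card_ge h2 (le_of_eq ?_)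
      rw [Nat.card_zpowers, Nat.card_zpowers, ← hg, Cfsg.Agent.H617.RankOneCol.orderOf_conj']
    have h2 : bel 2 M a u = bel 2 M a (u ^ w) :=
      eq_bel hM hmax.1.1 (by rw [hz]; rfl) (bel_le hM hmax.1.1 huS)
    have h3 : Fus 2 M a u (u ^ w) := ⟨g, hg, h1.trans h2⟩
    have h4 := (Cfsg.Agent.H755.FTB3.fus_iff hM hmax hF huS huw).1 h3
    rcases fd.cls u hu huZ _ h4 with h5 | h5
    · exact Or.inl h5
    · right
      rw [h5, hyu, ht]

/-- Blocks with defect groups in the class considered have rank at most three. -/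
theorem rank_le_three (hM : IsPModular 2 M) (hmax : IsMaximalBrauerPair 2 M B a.1 a.2)
    (hF : IsBlockFusionSystemOn 2 M B a.1 a.2 F) (hsat : F.IsSaturated 2)
    (hDa : IsDefectGroup 2 M B a.1) (h : Grp a.1 A x e y) (hNQ : NQF x F) :
    blockRank 2 B ≤ 3 := by
  have hp : Fact (Nat.Prime 2) := ⟨Nat.prime_two⟩
  have := Fintype.ofFinite G
  have hB : IsPBlock M B := hmax.1.2.1
  obtain ⟨d, Δ, fd⟩ := h.exists_fd hsat hNQ
  -- characters of height zero
  have h0 : k0 B ≤ 2 * Nat.card (Z a.1) := by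
    rcases fd.alt with ⟨u, hu, -, hnil, hC⟩ | ⟨u, hu, huZ, hou, h4, s, hs, hsu⟩
    · exact k0_le_first hM hmax hF hu hnil hC
    · exact k0_le_second hM hmax hF h fd hu huZ hou h4 hs hsu
  -- the subsection of `d`
  have hdS : d ∈ a.1 := Z_le fd.dZ
  have hsub := isSubsec_bel hM hmax hdS
  have hfblk : IsPBlock M (bel 2 M a d).2 := isPBlock_bel hM hmax.1.1 hdS
  have hdc : ∀ g ∈ a.1, g * d = d * g := (mem_Z.1 fd.dZ).2
  have hQS : Subgroup.zpowers d ≤ a.1 := Subgroup.zpowers_le.2 hdS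
  have hle : a.1 ≤ Subgroup.centralizer ((Subgroup.zpowers d : Subgroup G) : Set G) := by
    intro g hg
    rw [Cfsg.Agent.H613.SubSys.centralizer_zpowers, Subgroup.mem_centralizer_singleton_iff]
    exact hdc g hg
  have hfc : F.IsFullyCentralized (Subgroup.zpowers d) := by
    refine ⟨hQS, fun R _ => ?_⟩
    have h1 : centralizerIn a.1 (Subgroup.zpowers d) = a.1 := inf_eq_left.2 hle
    rw [h1]
    exact Nat.card_le_card_of_injective _ (Subgroup.inclusion_injective
      (inf_le_left : centralizerIn a.1 R ≤ a.1))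
  have hdef := (Cfsg.Agent.S4678.result 2 M hM B a.1 a.2 hmax F hF (Subgroup.zpowers d)
    (bel 2 M a d).2 hQS hfblk (bel_snd hM hmax.1.1 hdS).2).1 hfc
  rw [inf_eq_left.2 hle] at hdef
  have hmain := Cfsg.Agent.H639.FTN2.four_mul_card_le hM hB hDa hdS hdc
    (H := Subgroup.centralizer ((Subgroup.zpowers d : Subgroup G) : Set G))
    (Cfsg.Agent.H613.SubSys.centralizer_zpowers d) hsub.ind hdef
    (rank_bel_of_nilAt hM hmax hF hdS fd.nild)
  rw [← Cfsg.Agent.S0908.result 2 M hM B hB a.1 hDa, h.card_S] at hmain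
  have hcount := card_ge hM hmax hF h fd
  have hfinZ : Finite (Z a.1) := Cfsg.Agent.H802.finite_of_le Z_le
  have hpos : 0 < Nat.card (Z a.1) := Nat.card_pos
  have h0' : Nat.card {χ : IrrCharacter G // χ ∈ B ∧ blockHeight 2 B (χ : G → ℂ) = 0} ≤
    2 * Nat.card (Z a.1) := h0
  have hfin : Nat.card (Z a.1) * blockRank 2 B ≤ Nat.card (Z a.1) * 3 := by omega
  exact Nat.le_of_mul_le_mul_left hfin hpos

end Cfsg.Agent.H645.FT
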