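import Mathlib
import Cfsg.Agent.H645.FT.Ess

/-!
# The quotient by a central involution has no quaternion configuration
-/

set_option autoImplicit false

namespace Cfsg.Agent.H645.FT

open Cfsg.Agent.H745.MetaTwo (sq_of_cyclic)

variable {H : Type*} [Group H]

theorem mem_zpowers_involution {z w : H} (hzz : z * z = 1) :
    w ∈ Subgroup.zpowers z ↔ w = 1 ∨ w = z := by
  constructor
  · intro h
    obtain ⟨k, rfl⟩ := Subgroup.mem_zpowers_iff.1 h
    rcases Int.even_or_odd' k with ⟨m, rfl | rfl⟩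
    · left
      rw [zpow_mul, zpow_two, hzz, one_zpow]
    · right
      rw [zpow_add, zpow_mul, zpow_two, hzz, one_zpow, one_mul, zpow_one]
  · rintro (rfl | rfl)
    · exact Subgroup.one_mem _
    · exact Subgroup.mem_zpowers _

/-- An automorphism of odd order induced by conjugation in a quotient is induced by an element of
odd order. -/
theorem exists_odd_lift [Finite H] {U : Subgroup H} [U.Normal] {E : Subgroup (H ⧸ U)}
    {α : MulAut E} (hodd : ¬ 2 ∣ orderOf α) {g : H ⧸ U}
    (hg : ∀ v : E, ((α v : E) : H ⧸ U) = g * v * g⁻¹) :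
    ∃ k : H, Odd (orderOf k) ∧
      ∀ v : E, ((α v : E) : H ⧸ U) = (QuotientGroup.mk k : H ⧸ U) * v *
        (QuotientGroup.mk k : H ⧸ U)⁻¹ := by
  obtain ⟨h, rfl⟩ := QuotientGroup.mk_surjective g
  obtain ⟨s, r, hr, hn⟩ := Nat.exists_eq_two_pow_mul_odd (orderOf_pos h).ne'
  have hco : (2 ^ s).Coprime r := Nat.Coprime.pow_left s (Nat.coprime_two_left.2 hr)
  obtain ⟨k, hk0, hk1⟩ := Nat.chineseRemainder hco 0 1
  have hpow : ∀ (n : ℕ) (v : E), (((α ^ n) v : E) : H ⧸ U) =
      (QuotientGroup.mk (h ^ n) : H ⧸ U) * v * (QuotientGroup.mk (h ^ n) : H ⧸ U)⁻¹ := by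
    intro n
    induction n with
    | zero => intro v; simp
    | succ n ih =>
      intro v
      rw [pow_succ', MulAut.mul_apply, hg, ih, pow_succ', QuotientGroup.mk_mul]
      group
  have hαn : α ^ orderOf h = 1 := by
    refine MulEquiv.ext fun v => Subtype.ext ?_
    rw [hpow, pow_orderOf_eq_one, QuotientGroup.mk_one, one_mul, inv_one, mul_one]
    rfl
  have hαr : orderOf α ∣ r := by
    have h1 : orderOf α ∣ 2 ^ s * r := by rw [← hn]; exact orderOf_dvd_of_pow_eq_one hαn
    have h2 : (orderOf α).Coprime (2 ^ s) := (Nat.Coprime.pow_left s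
      ((Nat.Prime.coprime_iff_not_dvd Nat.prime_two).2 hodd)).symm
    exact h2.dvd_of_dvd_mul_left h1
  refine ⟨h ^ k, ?_, fun v => ?_⟩
  · have h1 : (h ^ k) ^ r = 1 := by
      rw [← pow_mul]
      refine orderOf_dvd_iff_pow_eq_one.1 ?_
      rw [hn]
      exact Nat.mul_dvd_mul_right ((Nat.modEq_zero_iff_dvd).1 hk0) r
    exact hr.of_dvd_nat (orderOf_dvd_of_pow_eq_one h1)
  · rw [← hpow]
    have h1 : α ^ k = α := by
      have h2 : α ^ k = α ^ 1 := pow_eq_pow_iff_modEq.2 (hk1.of_dvd hαr)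
      rw [h2, pow_one]
    rw [h1]

theorem nq_of_quot [Finite H] {z : H} (hz : z ∈ Subgroup.center H) (hz1 : z ≠ 1)
    (hzz : z * z = 1) {U : Subgroup H} [U.Normal] (hU : U = Subgroup.zpowers z) {c : H}
    (hc : z ∈ Subgroup.zpowers c) {E : Subgroup (H ⧸ U)} {α : MulAut E}
    (hodd : ¬ 2 ∣ orderOf α) {g : H ⧸ U} (hg : ∀ v : E, ((α v : E) : H ⧸ U) = g * v * g⁻¹) :
    NQ (QuotientGroup.mk c : H ⧸ U) α := by
  obtain ⟨k, hkodd, hk⟩ := exists_odd_lift hodd hg
  have hzc : ∀ w : H, w * z = z * w := Subgroup.mem_center_iff.1 hz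
  have heq : ∀ v w : H, (QuotientGroup.mk v : H ⧸ U) = QuotientGroup.mk w → w = v ∨ w = v * z := by
    intro v w hvw
    have h1 := QuotientGroup.eq.1 hvw
    rw [hU, mem_zpowers_involution hzz] at h1
    rcases h1 with h2 | h2
    · left
      exact (inv_mul_eq_one.1 h2).symm
    · right
      rw [← h2]; group
  intro q hq hqq hq4 hα2 hbad
  obtain ⟨i, hi⟩ := Subgroup.mem_zpowers_iff.1 hq
  set p : H := c ^ i with hp
  have hpq : (QuotientGroup.mk p : H ⧸ U) = q := by
    rw [← hi, hp]; rfl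
  set w : H := p * p with hw
  have hwq : (QuotientGroup.mk w : H ⧸ U) = q * q := by
    rw [hw, QuotientGroup.mk_mul, hpq]
  have hqq' : (q : H ⧸ U) * q ≠ 1 := fun h => hqq (Subtype.ext h)
  have hq4' : (q : H ⧸ U) * q * (q * q) = 1 := congrArg Subtype.val hq4
  have hw1 : w ≠ 1 := by
    intro h1
    apply hqq'
    rw [← hwq, h1]; rfl
  have hwz : w ≠ z := by
    intro h1
    apply hqq'
    rw [← hwq, h1]
    exact (QuotientGroup.eq_one_iff z).2 (by rw [hU]; exact Subgroup.mem_zpowers z)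
  have hwc : w ∈ Subgroup.zpowers c := Subgroup.mul_mem _ (Subgroup.zpow_mem _
    (Subgroup.mem_zpowers c) i) (Subgroup.zpow_mem _ (Subgroup.mem_zpowers c) i)
  have hww : w * w = z := by
    have h1 : (QuotientGroup.mk (w * w) : H ⧸ U) = 1 := by
      rw [QuotientGroup.mk_mul, hwq, hq4']
    have h2 := (QuotientGroup.eq_one_iff (w * w)).1 h1
    rw [hU, mem_zpowers_involution hzz] at h2
    rcases h2 with h3 | h3
    · rcases sq_of_cyclic (Subgroup.zpowers c) hwc hc h3 hzz hz1 with h4 | h4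
      · exact absurd h4 hw1
      · exact absurd h4 hwz
    · exact h3
  -- conjugation by `k`
  obtain ⟨p', hp'⟩ : ∃ p', p' = k * p * k⁻¹ := ⟨_, rfl⟩
  have hp'q : (QuotientGroup.mk p' : H ⧸ U) = (α q : E) := by
    rw [hk, hp', QuotientGroup.mk_mul, QuotientGroup.mk_mul, hpq]; rfl
  have hkw : p' * p' = k * w * k⁻¹ := by rw [hp', hw]; group
  have hp'p' : p' * p' = w := by
    have h1 : (QuotientGroup.mk w : H ⧸ U) = QuotientGroup.mk (p' * p') := by
      rw [hwq, QuotientGroup.mk_mul, hp'q]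
      exact (congrArg Subtype.val hα2).symm
    rcases heq _ _ h1 with h2 | h2
    · exact h2
    · exfalso
      have h3 : ∀ n : ℕ, k ^ n * w * (k ^ n)⁻¹ = w * z ^ n := by
        intro n
        induction n with
        | zero => simp
        | succ n ih =>
          have hzn : k * z ^ n = z ^ n * k := ((Commute.pow_right (show Commute k z from hzc k) n).eq)
          calc k ^ (n + 1) * w * (k ^ (n + 1))⁻¹ = k * (k ^ n * w * (k ^ n)⁻¹) * k⁻¹ := by
                rw [pow_succ']; group
            _ = k * (w * z ^ n) * k⁻¹ := by rw [ih]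
            _ = (k * w * k⁻¹) * (k * z ^ n) * k⁻¹ := by group
            _ = (w * z) * (z ^ n * k) * k⁻¹ := by rw [← hkw, h2, hzn]
            _ = w * (z * z ^ n) := by group
            _ = w * z ^ (n + 1) := by rw [pow_succ']
      have h4 := h3 (orderOf k)
      rw [pow_orderOf_eq_one, one_mul, inv_one, mul_one] at h4
      obtain ⟨m, hm⟩ := hkodd
      rw [hm, pow_succ, pow_mul, pow_two, hzz, one_pow, one_mul] at h4
      exact hz1 (mul_eq_left.1 h4.symm)
  -- the commutator relation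
  obtain ⟨v, hvv, hvp, hpv⟩ : ∃ v, v * v = z ∧ v * p = p * v ∧ p * p' = p' * p * v := by
    have h1 : (QuotientGroup.mk (p' * p * w) : H ⧸ U) = QuotientGroup.mk (p * p') := by
      rw [QuotientGroup.mk_mul U (p' * p) w, QuotientGroup.mk_mul U p' p,
        QuotientGroup.mk_mul U p p', hp'q, hpq, hwq]
      exact (congrArg Subtype.val hbad).symm
    have hwp : w * p = p * w := by rw [hw]; group
    rcases heq _ _ h1 with h2 | h2
    · exact ⟨w, hww, hwp, h2⟩
    · refine ⟨w * z, ?_, ?_, by rw [h2, mul_assoc (p' * p)]⟩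
      · calc w * z * (w * z) = w * (z * w) * z := by group
          _ = w * (w * z) * z := by rw [← hzc w]
          _ = (w * w) * (z * z) := by group
          _ = z := by rw [hzz, mul_one, hww]
      · calc w * z * p = w * (p * z) := by rw [mul_assoc, hzc]
          _ = p * (w * z) := by rw [← mul_assoc, hwp, mul_assoc]
  have h5 : p'⁻¹ * p * p' = p * v := by
    rw [mul_assoc, hpv]; group
  have h6 : p'⁻¹ * w * p' = w * z := by
    calc p'⁻¹ * w * p' = (p'⁻¹ * p * p') * (p'⁻¹ * p * p') := by rw [hw]; group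
      _ = p * (v * p) * v := by rw [h5]; group
      _ = p * (p * v) * v := by rw [hvp]
      _ = (p * p) * (v * v) := by group
      _ = w * z := by rw [hvv]
  have h7 : p'⁻¹ * w * p' = w := by
    rw [← hp'p']; group
  rw [h7] at h6
  exact hz1 (mul_eq_left.1 h6.symm)

end Cfsg.Agent.H645.FT
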